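import Cfsg.Agent.Invol.DihedralSylow
import Cfsg.Prelude.Def_TwoFusion
import Mathlib.GroupTheory.SpecificGroups.Cyclic
import Mathlib.Tactic.IntervalCases

/-!
Fusion in a group with dihedral Sylow 2-subgroups.
-/

set_option autoImplicit false
set_option linter.style.haveILetI false

namespace CfsgLib.Invol.DihedralSylow

universe u

variable {X : Type u} [Group X] [Finite X]

theorem zmod_two_xor₁ : ∀ a b c : ZMod 2, ¬b = c → ¬(c - a = b ↔ a = 0) := by decide

theorem zmod_two_xor₂ : ∀ a b c : ZMod 2, ¬b = c → ¬(c - a = 0 ↔ a = b) := by decide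

namespace Data

variable (D : Data X)

/-- An element of odd order normalizing a cyclic 2-subgroup centralizes it. -/
theorem fix_cyclic {A : Subgroup X} (hc : IsCyclic A) (hA : IsPGroup 2 A) {n : X}
    (hn : n ∈ Subgroup.normalizer (A : Set X)) (ho : (orderOf n).Coprime 2) {a : X} (ha : a ∈ A) :
    n * a * n⁻¹ = a := by
  haveI : Fact (Nat.Prime 2) := ⟨Nat.prime_two⟩
  obtain ⟨k, hk⟩ := IsPGroup.iff_card.1 hA
  set φ := A.normalizerMonoidHom ⟨n, hn⟩
  have h1 : orderOf φ ∣ orderOf n := by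
    have := orderOf_map_dvd A.normalizerMonoidHom (⟨n, hn⟩ : Subgroup.normalizer (A : Set X))
    rwa [Subgroup.orderOf_mk] at this
  have h2 : orderOf φ ∣ 2 ^ k := by
    refine (orderOf_dvd_natCard φ).trans ?_
    haveI := hc
    rw [IsCyclic.card_mulAut, hk]
    rcases k with _ | k
    · simp
    · rw [Nat.totient_prime_pow_succ Nat.prime_two]; simp [pow_succ]
  have h3 : φ = 1 := orderOf_eq_one_iff.1 (Nat.eq_one_of_dvd_coprimes (ho.pow_right k) h1 h2)
  have h4 : φ ⟨a, ha⟩ = ⟨a, ha⟩ := by rw [h3]; rfl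
  exact congrArg Subtype.val h4

omit [Finite X] in
theorem ss_pow_two (i : ZMod D.m) : D.ss i * D.ss i = 1 := by rw [ss_ss, sub_self, rr_zero]

omit [Finite X] in
theorem rotation_of_sq {x : X} (hx : x ∈ (D.S : Subgroup X)) (h : x * x ≠ 1) : ∃ i, x = D.rr i :=
  (D.cases_mem hx).resolve_right fun ⟨i, e⟩ => h (e ▸ D.ss_pow_two i)

/-- The normalizer of a four-group in the given hypothesis has no odd automorphism. -/
theorem four_fixed {U : Subgroup X}
    (h : Subgroup.normalizer (U : Set X) =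
      Subgroup.centralizer (U : Set X) ⊔ ((D.S : Subgroup X) ⊓ Subgroup.normalizer (U : Set X)))
    {n : X} (hn : n ∈ Subgroup.normalizer (U : Set X)) (ho : (orderOf n).Coprime 2) :
    n ∈ Subgroup.centralizer (U : Set X) := by
  haveI : Fact (Nat.Prime 2) := ⟨Nat.prime_two⟩
  set N := Subgroup.normalizer (U : Set X)
  set f : N →* MulAut U := U.normalizerMonoidHom with hf
  set P2 := (((D.S : Subgroup X) ⊓ N).subgroupOf N).map f with hP2
  have hP : IsPGroup 2 P2 :=
    ((D.S.isPGroup'.to_le inf_le_left).of_equiv (Subgroup.subgroupOfEquivOfLe inf_le_right).symm).map f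
  have hle : N ≤ (P2.comap f).map N.subtype := by
    conv_lhs => rw [h]
    refine sup_le (fun c hc => ⟨⟨c, Subgroup.centralizer_le_normalizer _ hc⟩, ?_, rfl⟩)
      (fun s hs => ⟨⟨s, hs.2⟩, ⟨⟨s, hs.2⟩, hs, rfl⟩, rfl⟩)
    have h1 : (⟨c, Subgroup.centralizer_le_normalizer _ hc⟩ : N) ∈ f.ker := by
      rw [hf, Subgroup.normalizerMonoidHom_ker]; exact hc
    show f _ ∈ P2
    rw [MonoidHom.mem_ker.1 h1]
    exact one_mem _
  obtain ⟨n', hn', e⟩ := hle hn
  obtain rfl : n' = ⟨n, hn⟩ := Subtype.ext e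
  obtain ⟨k, hk⟩ := IsPGroup.iff_orderOf.1 hP ⟨_, hn'⟩
  have hk : orderOf (f ⟨n, hn⟩) = 2 ^ k := (Subgroup.orderOf_coe _).trans hk
  have h1 : orderOf (f ⟨n, hn⟩) ∣ orderOf n := by
    have := orderOf_map_dvd f (⟨n, hn⟩ : N)
    rwa [Subgroup.orderOf_mk] at this
  have h2 : f ⟨n, hn⟩ = 1 := orderOf_eq_one_iff.1
    (Nat.eq_one_of_dvd_coprimes (ho.pow_right k) h1 (dvd_of_eq hk))
  have h3 : (⟨n, hn⟩ : N) ∈ U.normalizerMonoidHom.ker := by rw [← hf]; exact h2
  rw [Subgroup.normalizerMonoidHom_ker] at h3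
  exact h3

theorem hasNormalPComplement_of_fixed
    (h : ∀ U : Subgroup X, U ≤ (D.S : Subgroup X) → IsKleinFour U →
      Subgroup.normalizer (U : Set X) =
        Subgroup.centralizer (U : Set X) ⊔ ((D.S : Subgroup X) ⊓ Subgroup.normalizer (U : Set X))) :
    Cfsg.HasNormalPComplement 2 X := by
  haveI : Fact (Nat.Prime 2) := ⟨Nat.prime_two⟩
  refine Transfer.frobenius_normal_complement (Transfer.locallyTrivial_of_sylow D.S fun Q hQ n hn ho => ?_)
  have hconj : ∀ x ∈ Q, n * x * n⁻¹ ∈ Q := fun x hx => (Subgroup.mem_normalizer_iff.1 hn x).1 hx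
  rw [Subgroup.mem_centralizer_iff]
  suffices hfix : ∀ x ∈ Q, n * x * n⁻¹ = x from fun x hx => (mul_inv_eq_iff_eq_mul.1 (hfix x hx)).symm
  by_cases hB : ∃ d ∈ Q, d * d ≠ 1
  · obtain ⟨d, hd, hd2⟩ := hB
    obtain ⟨δ, hδ⟩ := D.rotation_of_sq (hQ hd) hd2
    set A := Q ⊓ Subgroup.zpowers (D.rr 1) with hA
    haveI : NeZero D.m := ⟨by have := D.hm; omega⟩
    have hrot : ∀ i, D.rr i ∈ Subgroup.zpowers (D.rr 1) := fun i => by
      have key : ∀ j : ℕ, D.rr 1 ^ j = D.rr j := by
        intro j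
        induction j with
        | zero => rw [pow_zero, Nat.cast_zero, rr_zero]
        | succ j ih => rw [pow_succ, ih, rr_rr, Nat.cast_succ]
      exact ⟨(i.val : ℤ), by show D.rr 1 ^ ((i.val : ℕ) : ℤ) = D.rr i; rw [zpow_natCast, key, ZMod.natCast_zmod_val]⟩
    have hrot' : ∀ x ∈ Subgroup.zpowers (D.rr 1), ∃ i, x = D.rr i := by
      intro x hx
      rcases D.cases_mem (Subgroup.zpowers_le.2 (D.rr_mem 1) hx) with h1 | ⟨i, rfl⟩
      · exact h1
      · exfalso
        have hc : D.ss i * D.rr 1 = D.rr 1 * D.ss i := by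
          obtain ⟨j, hj⟩ := Subgroup.mem_zpowers_iff.1 hx
          rw [← hj]
          exact ((Commute.refl (D.rr 1)).zpow_left j).eq
        rw [ss_rr, rr_ss] at hc
        have h2 := D.ss_inj hc
        have h3 : (2 : ZMod D.m) = 0 := by linear_combination h2
        have h4 : ∀ y : ZMod D.m, y + y = 0 := fun y => by linear_combination y * h3
        apply hd2
        rw [hδ, rr_rr, h4, rr_zero]
    have hinv : ∀ x ∈ A, n * x * n⁻¹ ∈ A := by
      have hsq : ∀ x ∈ Q, x * x ≠ 1 → n * x * n⁻¹ ∈ A := fun x hx hx2 => by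
        refine ⟨hconj x hx, ?_⟩
        obtain ⟨i, hi⟩ := D.rotation_of_sq (hQ (hconj x hx)) (fun e => hx2 (by
          calc x * x = n⁻¹ * ((n * x * n⁻¹) * (n * x * n⁻¹)) * n := by group
            _ = 1 := by rw [e]; group))
        exact hi ▸ hrot i
      intro x hx
      by_cases hx2 : x * x = 1
      · have h1 : (x * d) * (x * d) ≠ 1 := by
          obtain ⟨i, rfl⟩ := hrot' x hx.2
          rw [hδ, rr_rr, rr_rr, show i + δ + (i + δ) = i + i + (δ + δ) by ring, ← rr_rr, ← rr_rr, hx2, one_mul,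
            ← rr_rr, ← hδ]
          exact hd2
        have h2 := A.mul_mem (hsq _ (Q.mul_mem hx.1 hd) h1) (A.inv_mem (hsq d hd hd2))
        rwa [show n * (x * d) * n⁻¹ * (n * d * n⁻¹)⁻¹ = n * x * n⁻¹ by group] at h2
      · exact hsq x hx.1 hx2
    have hAn : n ∈ Subgroup.normalizer (A : Set X) := QDWr.conj_mem_normalizer hinv
    have hcyc : IsCyclic A :=
      isCyclic_of_injective (Subgroup.inclusion (inf_le_right : A ≤ Subgroup.zpowers (D.rr 1)))
        (Subgroup.inclusion_injective _)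
    have hAfix : ∀ x ∈ A, n * x * n⁻¹ = x := fun x hx =>
      fix_cyclic hcyc (D.S.isPGroup'.to_le (inf_le_left.trans hQ)) hAn ho hx
    intro x hx
    rcases D.cases_mem (hQ hx) with ⟨i, hi⟩ | ⟨i, hi⟩
    · exact hAfix x ⟨hx, hi ▸ hrot i⟩
    rcases D.cases_mem (hQ (hconj x hx)) with ⟨j, hj⟩ | ⟨j, hj⟩
    · exfalso
      have h1 : n * x * n⁻¹ ∈ A := ⟨hconj x hx, hj ▸ hrot j⟩
      have h2 := hAfix _ h1
      have h3 : n * x * n⁻¹ = x := mul_left_cancel (mul_right_cancel h2)
      exact D.rr_ne_ss j i (hj.symm.trans (h3.trans hi))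
    set c := x⁻¹ * (n * x * n⁻¹) with hc
    have hcA : c ∈ A := by
      refine ⟨Q.mul_mem (Q.inv_mem hx) (hconj x hx), ?_⟩
      rw [hc, hj, hi, ss_inv, ss_ss]
      exact hrot _
    have hnc := hAfix c hcA
    have hpow : ∀ k : ℕ, n ^ k * x * (n ^ k)⁻¹ = x * c ^ k := by
      intro k
      induction k with
      | zero => simp
      | succ k ih =>
        calc n ^ (k + 1) * x * (n ^ (k + 1))⁻¹ = n * (n ^ k * x * (n ^ k)⁻¹) * n⁻¹ := by rw [pow_succ']; group
          _ = (n * x * n⁻¹) * (n * c ^ k * n⁻¹) := by rw [ih]; group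
          _ = x * c * c ^ k := by rw [← conj_pow, hnc, show n * x * n⁻¹ = x * c by rw [hc, mul_inv_cancel_left]]
          _ = _ := by rw [mul_assoc, ← pow_succ']
    have h1 := hpow (orderOf n)
    rw [pow_orderOf_eq_one, inv_one, one_mul, mul_one] at h1
    obtain ⟨l, hl⟩ := IsPGroup.iff_orderOf.1 D.S.isPGroup' ⟨c, hQ hcA.1⟩
    rw [Subgroup.orderOf_mk] at hl
    have hc1 : c = 1 := orderOf_eq_one_iff.1 (Nat.eq_one_of_dvd_coprimes (ho.pow_right l)
      (orderOf_dvd_of_pow_eq_one (mul_eq_left.1 h1.symm)) (dvd_of_eq hl))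
    rw [hc, inv_mul_eq_one] at hc1
    exact hc1.symm
  · push Not at hB
    classical
    by_cases hss : ∃ i, D.ss i ∈ Q
    · obtain ⟨i, hi⟩ := hss
      have hle : Q ≤ D.four i := by
        intro x hx
        rcases D.involution_cases (hQ hx) (hB x hx) with rfl | rfl | ⟨j, rfl⟩
        · exact Or.inl rfl
        · exact Or.inr (Or.inl rfl)
        · have h2 := hB _ (Q.mul_mem hi hx)
          rw [ss_ss, rr_rr, ← rr_zero] at h2
          rcases D.double_eq_zero (D.rr_inj h2) with h3 | h3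
          · exact Or.inr (Or.inr (Or.inl (by rw [sub_eq_zero.1 h3])))
          · exact Or.inr (Or.inr (Or.inr (by rw [← h3]; congr 1; ring)))
      by_cases hQ4 : Q = D.four i
      · subst hQ4
        intro x hx
        have h1 := D.four_fixed (h _ (D.four_le i) (D.isKleinFour_four i)) hn ho
        rw [← Subgroup.mem_centralizer_iff.1 h1 x hx, mul_inv_cancel_right]
      · have hc2 : Nat.card Q ≤ 2 := by
          have h1 := Subgroup.card_dvd_of_le hle
          rw [(D.isKleinFour_four i).card_four] at h1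
          have h2 : Nat.card Q < 4 := by
            by_contra hge
            exact hQ4 (Subgroup.eq_of_le_of_card_ge hle (by rw [(D.isKleinFour_four i).card_four]; omega))
          obtain ⟨c, hc⟩ := h1
          interval_cases (Nat.card Q) <;> omega
        intro x hx
        by_contra hne
        have hx1 : x ≠ 1 := fun e => hne (by rw [e]; group)
        have hsub : ↑({1, x, n * x * n⁻¹} : Finset X) ⊆ (Q : Set X) := by
          intro y hy
          simp only [Finset.coe_insert, Finset.coe_singleton, Set.mem_insert_iff, Set.mem_singleton_iff] at hy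
          rcases hy with rfl | rfl | rfl
          exacts [Q.one_mem, hx, hconj x hx]
        have h3 := Set.ncard_le_ncard hsub
        rw [Set.ncard_coe_finset, ← Nat.card_coe_set_eq, SetLike.coe_sort_coe,
          Finset.card_insert_of_notMem (by
            have h5 : (1 : X) ≠ n * x * n⁻¹ := fun e => hx1 (conj_eq_one_iff.1 e.symm)
            simp only [Finset.mem_insert, Finset.mem_singleton, not_or]
            exact ⟨hx1.symm, h5⟩),
          Finset.card_pair (fun e => hne e.symm)] at h3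
        omega
    · push Not at hss
      have hz : ∀ x ∈ Q, x = 1 ∨ x = D.z := fun x hx => by
        rcases D.involution_cases (hQ hx) (hB x hx) with h1 | h1 | ⟨j, h1⟩
        · exact Or.inl h1
        · exact Or.inr h1
        · exact absurd (h1 ▸ hx) (hss j)
      intro x hx
      rcases hz x hx with rfl | rfl
      · group
      · rcases hz _ (hconj _ hx) with h1 | h1
        · exact absurd (conj_eq_one_iff.1 h1) D.z_ne
        · exact h1

/-- With a normal 2-complement, `N(U) = C(U) N_S(U)`. -/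
theorem normalizer_eq_of_complement (h : Cfsg.HasNormalPComplement 2 X) {U : Subgroup X}
    (hUS : U ≤ (D.S : Subgroup X)) :
    Subgroup.normalizer (U : Set X) =
      Subgroup.centralizer (U : Set X) ⊔ ((D.S : Subgroup X) ⊓ Subgroup.normalizer (U : Set X)) := by
  haveI : Fact (Nat.Prime 2) := ⟨Nat.prime_two⟩
  obtain ⟨O, hO, hc⟩ := Transfer.exists_complement h D.S
  refine le_antisymm (fun n hn => ?_) (sup_le (Subgroup.centralizer_le_normalizer _) inf_le_right)
  obtain ⟨⟨⟨o, ho⟩, ⟨s, hs⟩⟩, hos⟩ := hc.2 n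
  have hos' : o * s = n := hos
  have hcen : o ∈ Subgroup.centralizer (U : Set X) := by
    rw [Subgroup.mem_centralizer_iff]
    intro u hu
    set w := s * u * s⁻¹ with hw
    have hwS : w ∈ (D.S : Subgroup X) := mul_mem (mul_mem hs (hUS hu)) (inv_mem hs)
    have h1 : o * w * o⁻¹ ∈ U := by
      have := (Subgroup.mem_normalizer_iff.1 hn u).1 hu
      rwa [← hos', show o * s * u * (o * s)⁻¹ = o * w * o⁻¹ by rw [hw]; group] at this
    have h2 : w⁻¹ * (o * w * o⁻¹) = 1 := by
      have h3 : w⁻¹ * (o * w * o⁻¹) ∈ O := by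
        have h4 := O.mul_mem (hO.conj_mem o ho w⁻¹) (O.inv_mem ho)
        simpa [mul_assoc] using h4
      exact hc.disjoint.le_bot ⟨h3, (D.S : Subgroup X).mul_mem (inv_mem hwS) (hUS h1)⟩
    have h5 : o * w * o⁻¹ = w := (inv_mul_eq_one.1 h2).symm
    have hwU : w ∈ U := h5 ▸ h1
    -- every element of `U` is of this form
    have hsurj : U.map (MulAut.conj s).toMonoidHom = U := by
      refine Subgroup.eq_of_le_of_card_ge ?_ (Subgroup.card_map_of_injective (MulAut.conj s).injective).ge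
      rintro _ ⟨v, hv, rfl⟩
      have h6 := (Subgroup.mem_normalizer_iff.1 hn v).1 hv
      set w' := s * v * s⁻¹ with hw'
      have hwS' : w' ∈ (D.S : Subgroup X) := mul_mem (mul_mem hs (hUS hv)) (inv_mem hs)
      rw [← hos', show o * s * v * (o * s)⁻¹ = o * w' * o⁻¹ by rw [hw']; group] at h6
      have h3 : w'⁻¹ * (o * w' * o⁻¹) ∈ O := by
        have h4 := O.mul_mem (hO.conj_mem o ho w'⁻¹) (O.inv_mem ho)
        simpa [mul_assoc] using h4
      have h7 : w'⁻¹ * (o * w' * o⁻¹) = 1 :=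
        hc.disjoint.le_bot ⟨h3, (D.S : Subgroup X).mul_mem (inv_mem hwS') (hUS h6)⟩
      show w' ∈ U
      rw [inv_mul_eq_one.1 h7]
      exact h6
    obtain ⟨v, hv, hve⟩ := hsurj.ge hu
    have hve' : s * v * s⁻¹ = u := hve
    have h6 := (Subgroup.mem_normalizer_iff.1 hn v).1 hv
    rw [← hos', show o * s * v * (o * s)⁻¹ = o * (s * v * s⁻¹) * o⁻¹ by group, hve'] at h6
    have h3 : u⁻¹ * (o * u * o⁻¹) ∈ O := by
      have h4 := O.mul_mem (hO.conj_mem o ho u⁻¹) (O.inv_mem ho)
      simpa [mul_assoc] using h4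
    have h7 : u⁻¹ * (o * u * o⁻¹) = 1 :=
      hc.disjoint.le_bot ⟨h3, (D.S : Subgroup X).mul_mem (inv_mem (hUS hu)) (hUS h6)⟩
    exact mul_inv_eq_iff_eq_mul.1 (inv_mul_eq_one.1 h7).symm ▸ rfl
  have hsN : s ∈ (D.S : Subgroup X) ⊓ Subgroup.normalizer (U : Set X) := by
    refine ⟨hs, ?_⟩
    have := (Subgroup.normalizer (U : Set X)).mul_mem ((Subgroup.normalizer (U : Set X)).inv_mem
      (Subgroup.centralizer_le_normalizer _ hcen)) hn
    rwa [← hos', inv_mul_cancel_left] at this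
  rw [← hos']
  exact mul_mem (Subgroup.mem_sup_left hcen) (Subgroup.mem_sup_right hsN)

theorem s1256 :
    (Nat.card (D.S : Subgroup X) = 4 → ∀ U V : Subgroup X, IsKleinFour U → IsKleinFour V →
      ∃ x : X, U.map (MulAut.conj x).toMonoidHom = V) ∧
    (4 < Nat.card (D.S : Subgroup X) → ∃ U₁ U₂ : Subgroup X, IsKleinFour U₁ ∧ IsKleinFour U₂ ∧
      ¬ (∃ x : X, U₁.map (MulAut.conj x).toMonoidHom = U₂) ∧
      ∀ V : Subgroup X, IsKleinFour V → (∃ x : X, V.map (MulAut.conj x).toMonoidHom = U₁) ∨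
        (∃ x : X, V.map (MulAut.conj x).toMonoidHom = U₂)) := by
  have hcomp : ∀ (U : Subgroup X) (x y : X), (U.map (MulAut.conj x).toMonoidHom).map (MulAut.conj y).toMonoidHom =
      U.map (MulAut.conj (y * x)).toMonoidHom := fun U x y => by
    rw [Subgroup.map_map]
    congr 1
    ext u
    show y * (x * u * x⁻¹) * y⁻¹ = y * x * u * (y * x)⁻¹
    group
  refine ⟨fun hc U V hU hV => ?_, fun hc => ?_⟩
  · obtain ⟨x, hx⟩ := D.exists_conj_le_S (klein_isPGroup hU)
    obtain ⟨y, hy⟩ := D.exists_conj_le_S (klein_isPGroup hV)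
    have e1 := Subgroup.eq_of_le_of_card_ge hx (by rw [hc, (klein_map hU x).card_four])
    have e2 := Subgroup.eq_of_le_of_card_ge hy (by rw [hc, (klein_map hV y).card_four])
    refine ⟨y⁻¹ * x, ?_⟩
    rw [← hcomp, e1, ← e2, hcomp, inv_mul_cancel, map_one]
    exact Subgroup.map_id V
  · have h2 : 2 < D.m := by
      rw [Nat.card_congr D.e.toEquiv, DihedralGroup.nat_card] at hc
      omega
    refine ⟨D.four 0, D.four 1, D.isKleinFour_four 0, D.isKleinFour_four 1, ?_, fun V hV => ?_⟩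
    · rintro ⟨x, hx⟩
      obtain ⟨s, hs, hs'⟩ := D.s_conj_of_conj h2 (D.isKleinFour_four 0) (D.isKleinFour_four 1) (D.four_le 0)
        (D.four_le 1) hx
      have := D.parity_of_four_conj h2 hs hs'
      rw [map_zero, map_one] at this
      exact zero_ne_one this
    · obtain ⟨x, hx⟩ := D.exists_conj_le_S (klein_isPGroup hV)
      obtain ⟨i, hi⟩ := D.exists_four (klein_map hV x) hx
      have h01 : ∀ a : ZMod 2, a = 0 ∨ a = 1 := by decide
      rcases h01 (D.parity i) with hp | hp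
      · obtain ⟨s, -, hs⟩ := D.four_conj_of_parity (i := i) (j := 0) (by rw [hp, map_zero])
        exact Or.inl ⟨s * x, by rw [← hcomp, hi, hs]⟩
      · obtain ⟨s, -, hs⟩ := D.four_conj_of_parity (i := i) (j := 1) (by rw [hp, map_one])
        exact Or.inr ⟨s * x, by rw [← hcomp, hi, hs]⟩

theorem conj_z_of_same_parity {p q : ZMod D.m} (h : D.parity p = D.parity q)
    (hp : IsConj D.z (D.ss p)) : IsConj D.z (D.ss q) := by
  obtain ⟨a, ha⟩ := D.exists_half_of_parity (d := p - q) (by rw [map_sub, h, sub_self])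
  refine hp.trans (isConj_iff.2 ⟨D.rr a, ?_⟩)
  rw [conj_rr_ss, ← ha, sub_sub_cancel]

theorem isConj_of_forall (h : ∀ i, IsConj D.z (D.ss i)) {a : X} (ha : orderOf a = 2) : IsConj D.z a := by
  have hp : IsPGroup 2 (Subgroup.zpowers a) := IsPGroup.of_card (n := 1) (by rw [Nat.card_zpowers, ha, pow_one])
  obtain ⟨x, hx⟩ := D.exists_conj_le_S hp
  have hmem : x * a * x⁻¹ ∈ (D.S : Subgroup X) := hx ⟨a, Subgroup.mem_zpowers a, rfl⟩
  have hax : IsConj a (x * a * x⁻¹) := isConj_iff.2 ⟨x, rfl⟩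
  rcases D.involution_cases hmem (Invol.mul_self_of_orderOf (by rw [Invol.orderOf_conj, ha])) with e | e | ⟨i, e⟩
  · exact absurd (conj_eq_one_iff.1 e) (Invol.ne_one_of_orderOf ha)
  · exact (e ▸ hax).symm
  · exact (h i).trans (e ▸ hax).symm

omit [Finite X] in
/-- The automizer of a four-group. -/
theorem relIndex_eq_card_range (U : Subgroup X) :
    (Subgroup.centralizer (U : Set X)).relIndex (Subgroup.normalizer (U : Set X)) =
      Nat.card U.normalizerMonoidHom.range := by
  rw [Subgroup.relIndex, ← Subgroup.normalizerMonoidHom_ker, Subgroup.index_ker]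

/-- A full automizer makes all involutions of `U` conjugate. -/
theorem conj_of_index {i : ZMod D.m}
    (h : 3 ∣ (Subgroup.centralizer (D.four i : Set X)).relIndex (Subgroup.normalizer (D.four i : Set X))) :
    IsConj D.z (D.ss i) := by
  haveI : Fact (Nat.Prime 3) := ⟨Nat.prime_three⟩
  set U := D.four i with hU
  rw [relIndex_eq_card_range] at h
  obtain ⟨⟨σ, ⟨⟨n, hn⟩, rfl⟩⟩, hσ⟩ := exists_prime_orderOf_dvd_card' 3 h
  have hσ : orderOf (U.normalizerMonoidHom ⟨n, hn⟩) = 3 := (Subgroup.orderOf_coe _).trans hσ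
  set φ := U.normalizerMonoidHom ⟨n, hn⟩ with hφ
  have h3 : φ ^ 3 = 1 := hσ ▸ pow_orderOf_eq_one φ
  have hne : φ ≠ 1 := fun e => by rw [e, orderOf_one] at hσ; omega
  set a : U := ⟨D.z, D.z_mem_four' i⟩
  set b : U := ⟨D.ss i, D.ss_mem_four i⟩
  set c : U := ⟨D.ss (i + D.half), Or.inr (Or.inr (Or.inr rfl))⟩
  have hall : ∀ x : U, x = 1 ∨ x = a ∨ x = b ∨ x = c := by
    rintro ⟨x, rfl | rfl | rfl | rfl⟩
    exacts [Or.inl rfl, Or.inr (Or.inl rfl), Or.inr (Or.inr (Or.inl rfl)), Or.inr (Or.inr (Or.inr rfl))]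
  have hab : a ≠ b := fun e => D.rr_ne_ss D.half i (congrArg (fun y : U => (y : X)) e)
  have hac : a ≠ c := fun e => D.rr_ne_ss D.half (i + D.half) (congrArg (fun y : U => (y : X)) e)
  have ha1 : a ≠ 1 := fun e => D.z_ne (congrArg (fun y : U => (y : X)) e)
  have hit : ∀ x : U, φ (φ (φ x)) = x := fun x => DFunLike.congr_fun h3 x
  have hIs : ∀ x y : U, φ x = y → IsConj (x : X) (y : X) := fun x y e =>
    isConj_iff.2 ⟨n, congrArg Subtype.val e⟩
  rcases hall (φ a) with e | e | e | e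
  · exact absurd (φ.injective (e.trans (map_one φ).symm)) ha1
  · -- `φ` fixes `a`, so it is trivial
    exfalso
    refine hne (MulEquiv.ext fun x => ?_)
    rw [MulAut.one_apply]
    have hb : φ b = b := by
      rcases hall (φ b) with e' | e' | e' | e'
      · exact absurd (φ.injective (e'.trans (map_one φ).symm)) (fun e => by
          exact D.rr_ne_ss 0 i (D.rr_zero.trans (congrArg (fun y : U => (y : X)) e).symm))
      · exact absurd (φ.injective (e'.trans e.symm)) hab.symm
      · exact e'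
      · rcases hall (φ c) with e'' | e'' | e'' | e''
        · exact absurd (φ.injective (e''.trans (map_one φ).symm)) (fun e => by
            exact D.rr_ne_ss 0 (i + D.half) (D.rr_zero.trans (congrArg (fun y : U => (y : X)) e).symm))
        · exact absurd (φ.injective (e''.trans e.symm)) hac.symm
        · have := hit b
          rw [e', e'', e'] at this
          rw [this] at e'
          exact e'
        · exact (φ.injective (e''.trans e'.symm)) ▸ e''
    rcases hall x with rfl | rfl | rfl | rfl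
    · exact map_one φ
    · exact e
    · exact hb
    · rcases hall (φ c) with e'' | e'' | e'' | e''
      · exact absurd (φ.injective (e''.trans (map_one φ).symm)) (fun e => by
          exact D.rr_ne_ss 0 (i + D.half) (D.rr_zero.trans (congrArg (fun y : U => (y : X)) e).symm))
      · exact absurd (φ.injective (e''.trans e.symm)) hac.symm
      · exact absurd (φ.injective (e''.trans hb.symm)) (fun e => D.half_ne (left_eq_add.1 (D.ss_inj (congrArg (fun y : U => (y : X)) e)).symm))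
      · exact e''
  · exact hIs a b e
  · rcases hall (φ c) with e' | e' | e' | e'
    · exact absurd (φ.injective (e'.trans (map_one φ).symm)) (fun e => by
        exact D.rr_ne_ss 0 (i + D.half) (D.rr_zero.trans (congrArg (fun y : U => (y : X)) e).symm))
    · have := hit a
      rw [e, e', e] at this
      exact absurd this.symm hac
    · exact (hIs a c e).trans (hIs c b e')
    · exact absurd (φ.injective (e.trans e'.symm)) hac

theorem index_of_conj (h : ∀ i, IsConj D.z (D.ss i)) {U : Subgroup X} (hUS : U ≤ (D.S : Subgroup X))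
    (hU : IsKleinFour U) :
    (Subgroup.centralizer (U : Set X)).relIndex (Subgroup.normalizer (U : Set X)) =
      if Nat.card (D.S : Subgroup X) = 4 then 3 else 6 := by
  haveI : Fact (Nat.Prime 2) := ⟨Nat.prime_two⟩
  obtain ⟨i, rfl⟩ := D.exists_four hU hUS
  set U := D.four i with hUdef
  rw [relIndex_eq_card_range]
  set R := U.normalizerMonoidHom.range with hR
  haveI := hU
  have h6 : Nat.card R ∣ 6 := (Subgroup.card_subgroup_dvd_card R).trans (QDWr.card_mulAut_four_dvd U)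
  obtain ⟨g, hg⟩ := isConj_iff.1 (h i).symm
  obtain ⟨g', hg'⟩ := isConj_iff.1 (h (i + D.half)).symm
  obtain ⟨n, hn, hnb⟩ := D.exists_normalizer_move hU hUS (D.ss_mem_four i) hg
  obtain ⟨n', hn', hnb'⟩ := D.exists_normalizer_move hU hUS (b := D.ss (i + D.half))
    (Or.inr (Or.inr (Or.inr rfl))) hg'
  set φ : R := ⟨U.normalizerMonoidHom ⟨n, hn⟩, ⟨_, rfl⟩⟩
  set φ' : R := ⟨U.normalizerMonoidHom ⟨n', hn'⟩, ⟨_, rfl⟩⟩
  have hbz : D.ss i ≠ D.z := fun e => D.rr_ne_ss _ _ e.symm
  have hne1 : φ ≠ 1 := fun e => hbz (by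
    have h1 : (φ : MulAut U) ⟨D.ss i, D.ss_mem_four i⟩ = ⟨D.ss i, D.ss_mem_four i⟩ := by rw [e]; rfl
    have h2 : n * D.ss i * n⁻¹ = D.ss i := congrArg Subtype.val h1
    rw [← hnb, h2])
  have hne1' : φ' ≠ 1 := fun e => D.rr_ne_ss D.half (i + D.half) (by
    have h1 : (φ' : MulAut U) ⟨D.ss (i + D.half), Or.inr (Or.inr (Or.inr rfl))⟩ =
      ⟨D.ss (i + D.half), Or.inr (Or.inr (Or.inr rfl))⟩ := by rw [e]; rfl
    have h2 : n' * D.ss (i + D.half) * n'⁻¹ = D.ss (i + D.half) := congrArg Subtype.val h1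
    exact (hnb'.symm.trans h2))
  have hne : φ ≠ φ' := fun e => D.half_ne (by
    have e1 : (φ : MulAut U) ⟨D.ss i, D.ss_mem_four i⟩ = ⟨D.z, D.z_mem_four' i⟩ := Subtype.ext hnb
    have e2 : (φ' : MulAut U) ⟨D.ss (i + D.half), Or.inr (Or.inr (Or.inr rfl))⟩ = ⟨D.z, D.z_mem_four' i⟩ :=
      Subtype.ext hnb'
    rw [← e] at e2
    have h8 : D.ss i = D.ss (i + D.half) :=
      congrArg (fun y : U => (y : X)) ((φ : MulAut U).injective (e1.trans e2.symm))
    exact left_eq_add.1 (D.ss_inj h8))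
  have h3 : 3 ≤ Nat.card R := by
    classical
    haveI := Fintype.ofFinite R
    rw [Nat.card_eq_fintype_card]
    refine le_trans (le_of_eq ?_) (Finset.card_le_univ ({1, φ, φ'} : Finset R))
    rw [Finset.card_insert_of_notMem (by simp [hne1.symm, hne1'.symm]), Finset.card_pair hne]
  have hcase : Nat.card R = 3 ∨ Nat.card R = 6 := by
    have h6' := Nat.le_of_dvd (by norm_num) h6
    interval_cases (Nat.card R) <;> omega
  split_ifs with hS4
  · refine hcase.resolve_right fun h' => ?_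
    have hUeq : U = (D.S : Subgroup X) := Subgroup.eq_of_le_of_card_ge hUS (by rw [hS4, hU.card_four])
    have hle : (D.S : Subgroup X) ≤ Subgroup.centralizer (U : Set X) := by
      rw [hUeq]
      haveI : IsMulCommutative (D.S : Subgroup X) := IsPGroup.isMulCommutative_of_card_eq_prime_sq (p := 2) (by rw [hS4]; norm_num)
      exact Subgroup.le_centralizer _
    have h2 : 2 ∣ (Subgroup.centralizer (U : Set X)).relIndex (Subgroup.normalizer (U : Set X)) := by
      rw [relIndex_eq_card_range, h']; norm_num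
    exact D.S.not_dvd_index ((h2.trans (Subgroup.relIndex_dvd_index_of_le (Subgroup.centralizer_le_normalizer _))).trans
      (Subgroup.index_dvd_of_le hle))
  · refine hcase.resolve_left fun h' => ?_
    have h2 : 2 < D.m := by
      rw [Nat.card_congr D.e.toEquiv, DihedralGroup.nat_card] at hS4
      have := D.hm
      omega
    obtain ⟨s, hs, hs'⟩ := D.exists_shift h2 hU hUS
    have hsconj : ∀ u ∈ U, s * u * s⁻¹ ∈ U := fun u hu => by
      by_cases e1 : u = 1
      · simp [e1]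
      by_cases e2 : u = D.z
      · rw [e2, D.z_comm hs, mul_inv_cancel_right]; exact D.z_mem_four' i
      · rw [hs' u hu e1 e2]; exact U.mul_mem hu (D.z_mem_four' i)
    set ψ : R := ⟨U.normalizerMonoidHom ⟨s, QDWr.conj_mem_normalizer hsconj⟩, ⟨_, rfl⟩⟩
    obtain ⟨k, hk⟩ := IsPGroup.iff_orderOf.1 D.S.isPGroup' ⟨s, hs⟩
    rw [Subgroup.orderOf_mk] at hk
    have h1 : orderOf ψ ∣ orderOf s := by
      rw [← Subgroup.orderOf_coe]
      have := orderOf_map_dvd U.normalizerMonoidHom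
        (⟨s, QDWr.conj_mem_normalizer hsconj⟩ : Subgroup.normalizer (U : Set X))
      rwa [Subgroup.orderOf_mk] at this
    have h1' : orderOf ψ ∣ 3 := h' ▸ orderOf_dvd_natCard ψ
    have hψ : ψ = 1 := orderOf_eq_one_iff.1
      (Nat.eq_one_of_dvd_coprimes ((by norm_num : Nat.Coprime 3 2).pow_right k) h1' (hk ▸ h1))
    have h5 : (ψ : MulAut U) ⟨D.ss i, D.ss_mem_four i⟩ = ⟨D.ss i, D.ss_mem_four i⟩ := by rw [hψ]; rfl
    have h7 : s * D.ss i * s⁻¹ = D.ss i := congrArg Subtype.val h5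
    rw [hs' _ (D.ss_mem_four i) (Invol.ne_one_of_orderOf (D.orderOf_ss i)) hbz] at h7
    exact D.z_ne (mul_eq_left.1 h7)

theorem no_index_two (h : ∀ i, IsConj D.z (D.ss i)) (H : Subgroup X) : H.index ≠ 2 := by
  intro hH
  haveI : Fact (Nat.Prime 2) := ⟨Nat.prime_two⟩
  haveI := Subgroup.normal_of_index_eq_two hH
  have hiff : ∀ i, D.ss i ∈ H ↔ D.z ∈ H := fun i => by
    obtain ⟨g, hg⟩ := isConj_iff.1 (h i)
    rw [← hg]
    refine ⟨fun h1 => ?_, fun h1 => Subgroup.Normal.conj_mem inferInstance _ h1 g⟩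
    simpa [mul_assoc] using (Subgroup.Normal.conj_mem inferInstance _ h1 g⁻¹)
  have hz : D.z ∈ H := by
    by_contra hz
    have h1 : D.ss 0 * D.ss D.half ∈ H := (Subgroup.mul_mem_iff_of_index_two hH).2
      ⟨fun e => absurd ((hiff 0).1 e) hz, fun e => absurd ((hiff _).1 e) hz⟩
    rw [ss_ss, sub_zero] at h1
    exact hz h1
  have hS : (D.S : Subgroup X) ≤ H := by
    intro x hx
    rcases D.cases_mem hx with ⟨i, rfl⟩ | ⟨i, rfl⟩
    · rw [← sub_zero i, ← ss_ss]
      exact H.mul_mem ((hiff 0).2 hz) ((hiff i).2 hz)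
    · exact (hiff i).2 hz
  exact D.S.not_dvd_index (by have h1 := Subgroup.index_dvd_of_le hS; rwa [hH] at h1)

theorem not_isolated (h : ∀ i, IsConj D.z (D.ss i)) (w : X) : ¬ Cfsg.IsIsolatedInvolution w := by
  rintro ⟨hw, hiso⟩
  obtain ⟨g, rfl⟩ := isConj_iff.1 (D.isConj_of_forall h hw)
  obtain ⟨g₀, hg₀⟩ := isConj_iff.1 (h 0)
  have hcomm : Commute D.z (D.ss 0) := (D.z_comm (D.ss_mem 0)).symm
  have h1 := hiso (g * g₀ * g⁻¹) ?_
  · rw [show g * g₀ * g⁻¹ * (g * D.z * g⁻¹) * (g * g₀ * g⁻¹)⁻¹ = g * (g₀ * D.z * g₀⁻¹) * g⁻¹ by group, hg₀] at h1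
    exact D.rr_ne_ss D.half 0 (mul_left_cancel (mul_right_cancel h1)).symm
  · rw [show g * g₀ * g⁻¹ * (g * D.z * g⁻¹) * (g * g₀ * g⁻¹)⁻¹ = g * (g₀ * D.z * g₀⁻¹) * g⁻¹ by group, hg₀]
    show g * D.z * g⁻¹ * (g * D.ss 0 * g⁻¹) = g * D.ss 0 * g⁻¹ * (g * D.z * g⁻¹)
    calc g * D.z * g⁻¹ * (g * D.ss 0 * g⁻¹) = g * (D.z * D.ss 0) * g⁻¹ := by group
      _ = g * (D.ss 0 * D.z) * g⁻¹ := by rw [hcomm.eq]
      _ = _ := by group

theorem forall_conj_of_simple (h2 : ∀ H : Subgroup X, H.index ≠ 2) (hiso : ∀ w : X, ¬ Cfsg.IsIsolatedInvolution w) :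
    ∀ i, IsConj D.z (D.ss i) := by
  classical
  haveI : Fact (Nat.Prime 2) := ⟨Nat.prime_two⟩
  -- `z` is fused with some reflection
  obtain ⟨p, hp⟩ : ∃ p, IsConj D.z (D.ss p) := by
    by_contra hno
    push Not at hno
    refine hiso D.z ⟨D.orderOf_z, fun g hg => ?_⟩
    by_contra hne
    set z' := g * D.z * g⁻¹ with hz'
    have hz2 : z' * z' = 1 := Invol.mul_self_of_orderOf (by rw [hz', Invol.orderOf_conj, D.orderOf_z])
    have hcom : ∀ a ∈ ({D.z, z'} : Set X), ∀ b ∈ ({D.z, z'} : Set X), a * b = b * a := by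
      rintro a (rfl | rfl) b (rfl | rfl)
      exacts [rfl, hg.eq, hg.eq.symm, rfl]
    haveI : IsMulCommutative (Subgroup.closure ({D.z, z'} : Set X)) := Subgroup.isMulCommutative_closure hcom
    have hA : IsPGroup 2 (Subgroup.closure ({D.z, z'} : Set X)) := fun a => ⟨1, Subtype.ext (by
      obtain ⟨a, ha⟩ := a
      rw [pow_one, SubmonoidClass.coe_pow]
      show a ^ 2 = 1
      induction ha using Subgroup.closure_induction with
      | mem a ha => rcases ha with rfl | rfl <;> rw [pow_two]; exacts [D.z_sq, hz2]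
      | one => exact one_pow _
      | inv a _ ha => rw [inv_pow, ha, inv_one]
      | mul a b ha hb ea eb =>
        have hab : Commute a b := congrArg Subtype.val
          (mul_comm' (⟨a, ha⟩ : Subgroup.closure ({D.z, z'} : Set X)) ⟨b, hb⟩)
        rw [hab.mul_pow, ea, eb, one_mul])⟩
    obtain ⟨x, hx⟩ := D.exists_conj_le_S hA
    have key : ∀ a : X, IsConj D.z a → a ∈ ({D.z, z'} : Set X) → x * a * x⁻¹ = D.z := by
      intro a ha haA
      have hmem : x * a * x⁻¹ ∈ (D.S : Subgroup X) := hx ⟨a, Subgroup.subset_closure haA, rfl⟩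
      have hza : IsConj D.z (x * a * x⁻¹) := ha.trans (isConj_iff.2 ⟨x, rfl⟩)
      obtain ⟨c, hc⟩ := isConj_iff.1 hza
      rcases D.involution_cases hmem (Invol.mul_self_of_orderOf (by rw [← hc, Invol.orderOf_conj, D.orderOf_z]))
        with e | e | ⟨i, e⟩
      · rw [e] at hc; exact absurd (conj_eq_one_iff.1 hc) D.z_ne
      · exact e
      · exact absurd (e ▸ hza) (hno i)
    have e1 := key D.z (IsConj.refl _) (Set.mem_insert _ _)
    have e2 := key z' (isConj_iff.2 ⟨g, rfl⟩) (Set.mem_insert_of_mem _ rfl)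
    exact hne (mul_left_cancel (mul_right_cancel (e2.trans e1.symm)))
  intro q
  by_cases hpar : D.parity p = D.parity q
  · exact D.conj_z_of_same_parity hpar hp
  by_contra hq
  have h01 : ∀ a b : ZMod 2, a ≠ b → ∀ c, c = a ∨ c = b := by decide
  let M : Subgroup X :=
    { carrier := {x | (∃ i, x = D.rr i ∧ D.parity i = 0) ∨ ∃ i, x = D.ss i ∧ D.parity i = D.parity p}
      one_mem' := Or.inl ⟨0, D.rr_zero.symm, map_zero _⟩
      mul_mem' := by
        rintro a b (⟨i, rfl, hi⟩ | ⟨i, rfl, hi⟩) (⟨j, rfl, hj⟩ | ⟨j, rfl, hj⟩)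
        · exact Or.inl ⟨_, D.rr_rr i j, by rw [map_add, hi, hj, add_zero]⟩
        · exact Or.inr ⟨_, D.rr_ss i j, by rw [map_sub, hi, hj, sub_zero]⟩
        · exact Or.inr ⟨_, D.ss_rr i j, by rw [map_add, hi, hj, add_zero]⟩
        · exact Or.inl ⟨_, D.ss_ss i j, by rw [map_sub, hi, hj, sub_self]⟩
      inv_mem' := by
        rintro a (⟨i, rfl, hi⟩ | ⟨i, rfl, hi⟩)
        · exact Or.inl ⟨_, D.rr_inv i, by rw [map_neg, hi, neg_zero]⟩
        · exact Or.inr ⟨_, D.ss_inv i, hi⟩ }
  have hMS : M ≤ (D.S : Subgroup X) := by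
    rintro x (⟨i, rfl, -⟩ | ⟨i, rfl, -⟩)
    exacts [D.rr_mem i, D.ss_mem i]
  have memr : ∀ i, D.rr i ∈ M ↔ D.parity i = 0 := fun i =>
    ⟨fun h => h.elim (fun ⟨j, e, hj⟩ => D.rr_inj e ▸ hj) (fun ⟨j, e, _⟩ => absurd e (D.rr_ne_ss i j)),
      fun h => Or.inl ⟨i, rfl, h⟩⟩
  have mems : ∀ i, D.ss i ∈ M ↔ D.parity i = D.parity p := fun i =>
    ⟨fun h => h.elim (fun ⟨j, e, _⟩ => absurd e.symm (D.rr_ne_ss j i)) (fun ⟨j, e, hj⟩ => D.ss_inj e ▸ hj),
      fun h => Or.inr ⟨i, rfl, h⟩⟩
  have hidx : M.relIndex (D.S : Subgroup X) = 2 := by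
    rw [Subgroup.relIndex, Subgroup.index_eq_two_iff]
    refine ⟨⟨D.ss q, D.ss_mem q⟩, fun x => ?_⟩
    simp only [Subgroup.mem_subgroupOf, Subgroup.coe_mul]
    rcases D.cases_mem x.2 with ⟨i, hi⟩ | ⟨i, hi⟩
    · rw [hi, rr_ss, memr, mems, map_sub]
      generalize D.parity i = a
      generalize D.parity p = b at hpar ⊢
      generalize D.parity q = c at hpar ⊢
      revert a b c; simp only [xor_iff_not_iff]; exact zmod_two_xor₁
    · rw [hi, ss_ss, memr, mems, map_sub]
      generalize D.parity i = a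
      generalize D.parity p = b at hpar ⊢
      generalize D.parity q = c at hpar ⊢
      revert a b c; simp only [xor_iff_not_iff]; exact zmod_two_xor₂
  obtain ⟨N, -, hN, -⟩ := Transfer.thompson_transfer D.S hMS hidx (D.ss_pow_two q) fun g hg => by
    have hc : IsConj (D.ss q) (g * D.ss q * g⁻¹) := isConj_iff.2 ⟨g, rfl⟩
    rcases D.involution_cases (hMS hg) (Invol.mul_self_of_orderOf (by rw [Invol.orderOf_conj, D.orderOf_ss]))
      with e | e | ⟨i, e⟩
    · exact Invol.ne_one_of_orderOf (D.orderOf_ss q) (conj_eq_one_iff.1 e)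
    · exact hq (e ▸ hc).symm
    · rw [e] at hg hc
      exact hq ((D.conj_z_of_same_parity ((mems i).1 hg).symm hp).trans hc.symm)
  exact h2 N hN

theorem s1255 :
    ((∀ H : Subgroup X, H.index ≠ 2) ∧ (∀ z : X, ¬ Cfsg.IsIsolatedInvolution z)) ↔
    ((∀ a b : X, orderOf a = 2 → orderOf b = 2 → IsConj a b) ∨
      (∀ U : Subgroup X, U ≤ (D.S : Subgroup X) → IsKleinFour U →
        (Subgroup.centralizer (U : Set X)).relIndex (Subgroup.normalizer (U : Set X)) =
          (if Nat.card (D.S : Subgroup X) = 4 then 3 else 6))) := by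
  constructor
  · rintro ⟨h1, h2⟩
    exact Or.inr fun U hUS hU => D.index_of_conj (D.forall_conj_of_simple h1 h2) hUS hU
  · intro h
    have hall : ∀ i, IsConj D.z (D.ss i) := by
      rcases h with h | h
      · exact fun i => h _ _ D.orderOf_z (D.orderOf_ss i)
      · intro i
        refine D.conj_of_index ?_
        rw [h _ (D.four_le i) (D.isKleinFour_four i)]
        split_ifs <;> norm_num
    exact ⟨D.no_index_two hall, D.not_isolated hall⟩

end Data

end CfsgLib.Invol.DihedralSylow
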