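import Cfsg.Agent.BSW.DihedralCz
import Cfsg.Agent.Invol.Dihedral
import Cfsg.Agent.Transfer.Focal
import Cfsg.Agent.Transfer.Frobenius
import Cfsg.Agent.QDWr.LocalIndex
import Mathlib.GroupTheory.SpecificGroups.Dihedral
import Mathlib.GroupTheory.SpecificGroups.KleinFour
import Mathlib.RingTheory.IntegralDomain

/-!
Four-groups in a group with dihedral Sylow 2-subgroups.
-/

set_option autoImplicit false
set_option linter.style.haveILetI false

namespace CfsgLib.Invol.DihedralSylow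

open DihedralGroup

universe u

variable {X : Type u} [Group X] [Finite X]

/-- A fixed identification of a Sylow 2-subgroup with a dihedral group. -/
structure Data (X : Type u) [Group X] where
  S : Sylow 2 X
  m : ℕ
  hm : 2 ≤ m
  e : (S : Subgroup X) ≃* DihedralGroup m

namespace Data

variable (D : Data X)

/-- Rotations. -/
def rr (i : ZMod D.m) : X := (D.e.symm (r i) : X)

/-- Reflections. -/
def ss (i : ZMod D.m) : X := (D.e.symm (sr i) : X)

/-- The half turn index. -/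
def half : ZMod D.m := ((D.m / 2 : ℕ) : ZMod D.m)

/-- The central involution. -/
def z : X := D.rr D.half

omit [Finite X] in
theorem rr_mem (i : ZMod D.m) : D.rr i ∈ (D.S : Subgroup X) := (D.e.symm (r i)).2

omit [Finite X] in
theorem ss_mem (i : ZMod D.m) : D.ss i ∈ (D.S : Subgroup X) := (D.e.symm (sr i)).2

omit [Finite X] in
theorem rr_rr (i j : ZMod D.m) : D.rr i * D.rr j = D.rr (i + j) := by
  simp only [rr, ← Subgroup.coe_mul, ← map_mul, r_mul_r]

omit [Finite X] in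
theorem rr_ss (i j : ZMod D.m) : D.rr i * D.ss j = D.ss (j - i) := by
  simp only [rr, ss, ← Subgroup.coe_mul, ← map_mul, r_mul_sr]

omit [Finite X] in
theorem ss_rr (i j : ZMod D.m) : D.ss i * D.rr j = D.ss (i + j) := by
  simp only [rr, ss, ← Subgroup.coe_mul, ← map_mul, sr_mul_r]

omit [Finite X] in
theorem ss_ss (i j : ZMod D.m) : D.ss i * D.ss j = D.rr (j - i) := by
  simp only [rr, ss, ← Subgroup.coe_mul, ← map_mul, sr_mul_sr]

omit [Finite X] in
theorem rr_zero : D.rr 0 = 1 := by rw [rr, ← DihedralGroup.one_def, map_one, Subgroup.coe_one]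

omit [Finite X] in
theorem rr_inv (i : ZMod D.m) : (D.rr i)⁻¹ = D.rr (-i) :=
  inv_eq_of_mul_eq_one_right (by rw [rr_rr, add_neg_cancel, rr_zero])

omit [Finite X] in
theorem ss_inv (i : ZMod D.m) : (D.ss i)⁻¹ = D.ss i :=
  inv_eq_of_mul_eq_one_right (by rw [ss_ss, sub_self, rr_zero])

omit [Finite X] in
theorem rr_inj {i j : ZMod D.m} (h : D.rr i = D.rr j) : i = j :=
  DihedralGroup.r.inj (D.e.symm.injective (Subtype.ext h))

omit [Finite X] in
theorem ss_inj {i j : ZMod D.m} (h : D.ss i = D.ss j) : i = j :=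
  DihedralGroup.sr.inj (D.e.symm.injective (Subtype.ext h))

omit [Finite X] in
theorem rr_ne_ss (i j : ZMod D.m) : D.rr i ≠ D.ss j := fun h => by
  have := D.e.symm.injective (Subtype.ext h : D.e.symm (r i) = D.e.symm (sr j))
  cases this

omit [Finite X] in
theorem cases_mem {x : X} (hx : x ∈ (D.S : Subgroup X)) : (∃ i, x = D.rr i) ∨ ∃ i, x = D.ss i := by
  rcases hd : D.e ⟨x, hx⟩ with i | i
  · exact Or.inl ⟨i, by rw [rr, ← hd, MulEquiv.symm_apply_apply]⟩
  · exact Or.inr ⟨i, by rw [ss, ← hd, MulEquiv.symm_apply_apply]⟩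

theorem exists_pow : ∃ k, D.m = 2 ^ (k + 1) := by
  haveI : Fact (Nat.Prime 2) := ⟨Nat.prime_two⟩
  obtain ⟨k, hk⟩ := IsPGroup.iff_card.1 D.S.isPGroup'
  rw [Nat.card_congr D.e.toEquiv, DihedralGroup.nat_card] at hk
  have := D.hm
  rcases k with _ | _ | k
  · simp at hk
  · simp at hk; omega
  · exact ⟨k, by rw [pow_succ] at hk; omega⟩

theorem two_dvd : 2 ∣ D.m := by
  obtain ⟨k, hk⟩ := D.exists_pow
  exact hk ▸ dvd_pow_self 2 k.succ_ne_zero

theorem half_add : D.half + D.half = 0 := by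
  rw [half, ← Nat.cast_add, ← two_mul, Nat.mul_div_cancel' D.two_dvd, ZMod.natCast_self]

omit [Finite X] in
theorem half_ne : D.half ≠ 0 := by
  rw [half, Ne, ZMod.natCast_eq_zero_iff]
  intro h
  have := D.hm
  exact absurd (Nat.le_of_dvd (by omega) h) (by omega)

theorem double_eq_zero {i : ZMod D.m} (h : i + i = 0) : i = 0 ∨ i = D.half := by
  haveI : NeZero D.m := ⟨by have := D.hm; omega⟩
  by_cases hi : i = 0
  · exact Or.inl hi
  · exact Or.inr (BSW.zmod_half_unique h D.half_add hi D.half_ne)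

theorem z_sq : D.z * D.z = 1 := by rw [z, rr_rr, half_add, rr_zero]

omit [Finite X] in
theorem z_ne : D.z ≠ 1 := fun h => D.half_ne (D.rr_inj (h.trans D.rr_zero.symm))

theorem orderOf_z : orderOf D.z = 2 := by
  haveI : Fact (Nat.Prime 2) := ⟨Nat.prime_two⟩
  exact orderOf_eq_prime (by rw [pow_two, z_sq]) D.z_ne

omit [Finite X] in
theorem z_mem : D.z ∈ (D.S : Subgroup X) := D.rr_mem _

theorem neg_half : -D.half = D.half := neg_eq_of_add_eq_zero_left D.half_add

theorem z_comm {x : X} (hx : x ∈ (D.S : Subgroup X)) : x * D.z = D.z * x := by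
  rcases D.cases_mem hx with ⟨i, rfl⟩ | ⟨i, rfl⟩
  · rw [z, rr_rr, rr_rr, add_comm]
  · rw [z, ss_rr, rr_ss, sub_eq_add_neg, neg_half]

omit [Finite X] in
theorem orderOf_ss (i : ZMod D.m) : orderOf (D.ss i) = 2 := by
  haveI : Fact (Nat.Prime 2) := ⟨Nat.prime_two⟩
  refine orderOf_eq_prime (by rw [pow_two, ss_ss, sub_self, rr_zero]) fun h => ?_
  exact D.rr_ne_ss 0 i (D.rr_zero.trans h.symm)

theorem involution_cases {x : X} (hx : x ∈ (D.S : Subgroup X)) (h2 : x * x = 1) :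
    x = 1 ∨ x = D.z ∨ ∃ i, x = D.ss i := by
  rcases D.cases_mem hx with ⟨i, rfl⟩ | ⟨i, rfl⟩
  · rw [rr_rr, ← rr_zero] at h2
    rcases D.double_eq_zero (D.rr_inj h2) with rfl | rfl
    · exact Or.inl D.rr_zero
    · exact Or.inr (Or.inl rfl)
  · exact Or.inr (Or.inr ⟨i, rfl⟩)

/-- The four-group through a reflection. -/
def four (i : ZMod D.m) : Subgroup X where
  carrier := {x | x = 1 ∨ x = D.z ∨ x = D.ss i ∨ x = D.ss (i + D.half)}
  one_mem' := Or.inl rfl
  mul_mem' := by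
    have h1 : i - D.half = i + D.half := by rw [sub_eq_add_neg, neg_half]
    rintro a b (rfl | rfl | rfl | rfl) (rfl | rfl | rfl | rfl) <;>
      simp [z, rr_rr, rr_ss, ss_rr, ss_ss, half_add, rr_zero, h1, add_assoc, neg_half]
  inv_mem' := by
    rintro a (rfl | rfl | rfl | rfl) <;> simp [z, rr_inv, ss_inv, neg_half]

omit [Finite X] in
theorem z_mem_four' [Finite X] (i : ZMod D.m) : D.z ∈ D.four i := Or.inr (Or.inl rfl)

theorem ss_mem_four (i : ZMod D.m) : D.ss i ∈ D.four i := Or.inr (Or.inr (Or.inl rfl))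

theorem four_le (i : ZMod D.m) : D.four i ≤ (D.S : Subgroup X) := by
  rintro x (rfl | rfl | rfl | rfl)
  exacts [one_mem _, D.z_mem, D.ss_mem _, D.ss_mem _]

theorem isKleinFour_four (i : ZMod D.m) : IsKleinFour (D.four i) := by
  classical
  have hsq : ∀ x ∈ D.four i, x * x = 1 := by
    rintro x (rfl | rfl | rfl | rfl)
    · rw [one_mul]
    · exact D.z_sq
    · rw [ss_ss, sub_self, rr_zero]
    · rw [ss_ss, sub_self, rr_zero]
  have hcard : Nat.card (D.four i) = 4 := by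
    have hc : ((D.four i : Subgroup X) : Set X) =
        ↑({1, D.z, D.ss i, D.ss (i + D.half)} : Finset X) := by
      ext x
      simp only [Finset.coe_insert, Finset.coe_singleton, Set.mem_insert_iff, Set.mem_singleton_iff]
      exact Iff.rfl
    rw [← SetLike.coe_sort_coe, hc, Nat.card_coe_set_eq, Set.ncard_coe_finset]
    have h1 : ∀ j, (1 : X) ≠ D.ss j := fun j e => D.rr_ne_ss 0 j (D.rr_zero.trans e)
    have h2 : ∀ j, D.z ≠ D.ss j := fun j => D.rr_ne_ss _ j
    have h3 : D.ss i ≠ D.ss (i + D.half) := fun e => D.half_ne (left_eq_add.1 (D.ss_inj e))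
    rw [Finset.card_insert_of_notMem, Finset.card_insert_of_notMem, Finset.card_pair h3]
    · simp [h2]
    · simp [h1, D.z_ne.symm]
  refine ⟨hcard, ?_⟩
  haveI : Nontrivial (D.four i) := Finite.one_lt_card_iff_nontrivial.1 (by omega)
  exact ((Nat.dvd_prime Nat.prime_two).1 (Monoid.exponent_dvd_of_forall_pow_eq_one fun x =>
    Subtype.ext (by rw [SubmonoidClass.coe_pow, pow_two]; exact hsq x x.2))).resolve_left
      fun h => not_subsingleton (D.four i) (Monoid.exp_eq_one_iff.1 h)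

omit [Finite X] in
theorem mul_self_klein {U : Subgroup X} (hU : IsKleinFour U) {x : X} (hx : x ∈ U) : x * x = 1 :=
  congrArg Subtype.val (IsKleinFour.mul_self (⟨x, hx⟩ : U))

theorem exists_four {U : Subgroup X} (hU : IsKleinFour U) (hUS : U ≤ (D.S : Subgroup X)) :
    ∃ i, U = D.four i := by
  classical
  obtain ⟨i, hi⟩ : ∃ i, D.ss i ∈ U := by
    by_contra hno
    push Not at hno
    have hsub : (U : Set X) ⊆ ↑({1, D.z} : Finset X) := by
      intro x hx
      rcases D.involution_cases (hUS hx) (mul_self_klein hU hx) with rfl | rfl | ⟨j, rfl⟩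
      · simp
      · simp
      · exact absurd hx (hno j)
    have h1 := Set.ncard_le_ncard hsub
    rw [Set.ncard_coe_finset, ← Nat.card_coe_set_eq, SetLike.coe_sort_coe, hU.card_four] at h1
    have : ({1, D.z} : Finset X).card ≤ 2 := Finset.card_le_two
    omega
  refine ⟨i, Subgroup.eq_of_le_of_card_ge (fun x hx => ?_) (by rw [hU.card_four, (D.isKleinFour_four i).card_four])⟩
  rcases D.involution_cases (hUS hx) (mul_self_klein hU hx) with rfl | rfl | ⟨j, rfl⟩
  · exact Or.inl rfl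
  · exact Or.inr (Or.inl rfl)
  · have h2 := mul_self_klein hU (U.mul_mem hi hx)
    rw [ss_ss, rr_rr, ← rr_zero] at h2
    rcases D.double_eq_zero (D.rr_inj h2) with h3 | h3
    · exact Or.inr (Or.inr (Or.inl (by rw [sub_eq_zero.1 h3])))
    · exact Or.inr (Or.inr (Or.inr (by rw [← h3]; congr 1; ring)))

theorem z_mem_klein {U : Subgroup X} (hU : IsKleinFour U) (hUS : U ≤ (D.S : Subgroup X)) : D.z ∈ U := by
  obtain ⟨i, rfl⟩ := D.exists_four hU hUS
  exact D.z_mem_four' i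

/-- The parity of a reflection index. -/
def parity : ZMod D.m →+* ZMod 2 := ZMod.castHom D.two_dvd (ZMod 2)

theorem exists_half_of_parity {d : ZMod D.m} (h : D.parity d = 0) : ∃ a, d = a + a := by
  haveI : NeZero D.m := ⟨by have := D.hm; omega⟩
  rw [parity, ← ZMod.natCast_zmod_val d, map_natCast, ZMod.natCast_eq_zero_iff] at h
  obtain ⟨a, ha⟩ := h
  exact ⟨(a : ZMod D.m), by rw [← Nat.cast_add, ← two_mul, ← ha, ZMod.natCast_zmod_val]⟩

theorem parity_half (h2 : 2 < D.m) : D.parity D.half = 0 := by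
  obtain ⟨k, hk⟩ := D.exists_pow
  rw [parity, half, map_natCast, ZMod.natCast_eq_zero_iff, hk]
  rw [pow_succ, Nat.mul_div_cancel _ two_pos]
  refine dvd_pow_self 2 fun hk0 => ?_
  rw [hk, hk0] at h2
  norm_num at h2

omit [Finite X] in
theorem conj_rr_ss (a i : ZMod D.m) : D.rr a * D.ss i * (D.rr a)⁻¹ = D.ss (i - (a + a)) := by
  rw [rr_ss, rr_inv, ss_rr]; congr 1; ring

omit [Finite X] in
theorem conj_ss_ss (a i : ZMod D.m) : D.ss a * D.ss i * (D.ss a)⁻¹ = D.ss (a + a - i) := by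
  rw [ss_ss, ss_inv, rr_ss]; congr 1; ring

theorem four_conj_of_parity {i j : ZMod D.m} (h : D.parity i = D.parity j) :
    ∃ s ∈ (D.S : Subgroup X), (D.four i).map (MulAut.conj s).toMonoidHom = D.four j := by
  obtain ⟨a, ha⟩ := D.exists_half_of_parity (d := i - j) (by rw [map_sub, h, sub_self])
  refine ⟨D.rr a, D.rr_mem a, Subgroup.eq_of_le_of_card_ge ?_ ?_⟩
  · rintro _ ⟨x, hx, rfl⟩
    show D.rr a * x * (D.rr a)⁻¹ ∈ D.four j
    rcases hx with rfl | rfl | rfl | rfl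
    · rw [mul_one, mul_inv_cancel]; exact one_mem _
    · rw [D.z_comm (D.rr_mem a), mul_inv_cancel_right]; exact D.z_mem_four' j
    · rw [conj_rr_ss, ← ha, sub_sub_cancel]; exact D.ss_mem_four j
    · rw [conj_rr_ss, ← ha]
      exact Or.inr (Or.inr (Or.inr (by congr 1; ring)))
  · rw [Subgroup.card_map_of_injective (MulAut.conj (D.rr a)).injective, (D.isKleinFour_four i).card_four,
      (D.isKleinFour_four j).card_four]

theorem parity_of_four_conj (h2 : 2 < D.m) {i j : ZMod D.m} {s : X} (hs : s ∈ (D.S : Subgroup X))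
    (h : (D.four i).map (MulAut.conj s).toMonoidHom = D.four j) : D.parity i = D.parity j := by
  have h1 : s * D.ss i * s⁻¹ ∈ D.four j := h ▸ ⟨D.ss i, D.ss_mem_four i, rfl⟩
  have h2' := D.parity_half h2
  have hdd : ∀ a : ZMod D.m, D.parity (a + a) = 0 := fun a => by rw [map_add]; exact CharTwo.add_self_eq_zero _
  obtain ⟨k, hk, hk'⟩ : ∃ k, s * D.ss i * s⁻¹ = D.ss k ∧ D.parity k = D.parity i := by
    rcases D.cases_mem hs with ⟨a, rfl⟩ | ⟨a, rfl⟩
    · exact ⟨_, D.conj_rr_ss a i, by rw [map_sub, hdd, sub_zero]⟩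
    · exact ⟨_, D.conj_ss_ss a i, by rw [map_sub, hdd, zero_sub, CharTwo.neg_eq]⟩
  rw [hk] at h1
  rcases h1 with e | e | e | e
  · exact absurd (D.rr_zero.trans e.symm) (D.rr_ne_ss 0 k)
  · exact absurd e.symm (D.rr_ne_ss _ k)
  · rw [← hk', D.ss_inj e]
  · rw [← hk', D.ss_inj e, map_add, h2', add_zero]

/-- An element of `S` inducing a transvection fixing `z`. -/
theorem exists_shift (h2 : 2 < D.m) {U : Subgroup X} (hU : IsKleinFour U) (hUS : U ≤ (D.S : Subgroup X)) :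
    ∃ s ∈ (D.S : Subgroup X), ∀ u ∈ U, u ≠ 1 → u ≠ D.z → s * u * s⁻¹ = u * D.z := by
  obtain ⟨i, rfl⟩ := D.exists_four hU hUS
  obtain ⟨a, ha⟩ := D.exists_half_of_parity (D.parity_half h2)
  refine ⟨D.rr a, D.rr_mem a, fun u hu h1 hz => ?_⟩
  rcases hu with rfl | rfl | rfl | rfl
  · exact absurd rfl h1
  · exact absurd rfl hz
  all_goals rw [conj_rr_ss, ← ha, z, ss_rr, sub_eq_add_neg, neg_half]

theorem mem_centralizer_z {x : X} (hx : x ∈ (D.S : Subgroup X)) : x ∈ Subgroup.centralizer ({D.z} : Set X) :=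
  Subgroup.mem_centralizer_singleton_iff.2 (D.z_comm hx)

/-- `C(z) = O(C(z)) S`. -/
theorem exists_complement_z : ∃ O : Subgroup (Subgroup.centralizer ({D.z} : Set X)), O.Normal ∧
    (∀ x ∈ O, ((x : X) ∈ (D.S : Subgroup X)) → x = 1) ∧
    ∀ g ∈ Subgroup.centralizer ({D.z} : Set X), ∃ o ∈ O, ∃ s ∈ (D.S : Subgroup X), g = (o : X) * s := by
  haveI : Fact (Nat.Prime 2) := ⟨Nat.prime_two⟩
  have h := BSW.centralizer_hasNormalPComplement D.S (n := D.m) (by have := D.hm; omega) ⟨D.e⟩ D.orderOf_z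
  obtain ⟨O, hO, hc⟩ := Transfer.exists_complement h (D.S.subtype fun x hx => D.mem_centralizer_z hx)
  refine ⟨O, hO, fun x hx hxS => ?_, fun g hg => ?_⟩
  · have := hc.disjoint.le_bot (show x ∈ O ⊓ _ from ⟨hx, hxS⟩)
    exact this
  · obtain ⟨⟨⟨o, ho⟩, ⟨s, hs⟩⟩, hos⟩ := hc.2 (⟨g, hg⟩ : Subgroup.centralizer ({D.z} : Set X))
    exact ⟨o, ho, s, hs, (congrArg Subtype.val hos).symm⟩

/-- Control of four-groups inside `C(z)`. -/
theorem s_conj_of_centralizer {U V : Subgroup X} (hUS : U ≤ (D.S : Subgroup X)) (hVS : V ≤ (D.S : Subgroup X))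
    {g : X} (hg : g ∈ Subgroup.centralizer ({D.z} : Set X)) (h : U.map (MulAut.conj g).toMonoidHom = V) :
    ∃ s ∈ (D.S : Subgroup X), U.map (MulAut.conj s).toMonoidHom = V := by
  obtain ⟨O, hO, hdisj, hdec⟩ := D.exists_complement_z
  obtain ⟨o, ho, s, hs, rfl⟩ := hdec g hg
  refine ⟨s, hs, ?_⟩
  have hkey : ∀ u ∈ U, ((o : X) * s) * u * ((o : X) * s)⁻¹ = s * u * s⁻¹ := by
    intro u hu
    set w := s * u * s⁻¹ with hw
    have hwS : w ∈ (D.S : Subgroup X) := mul_mem (mul_mem hs (hUS hu)) (inv_mem hs)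
    have hgw : ((o : X) * s) * u * ((o : X) * s)⁻¹ = (o : X) * w * (o : X)⁻¹ := by rw [hw]; group
    have hvS : (o : X) * w * (o : X)⁻¹ ∈ (D.S : Subgroup X) := hgw ▸ hVS (h ▸ ⟨u, hu, rfl⟩)
    set wc : Subgroup.centralizer ({D.z} : Set X) := ⟨w, D.mem_centralizer_z hwS⟩
    have h1 : wc⁻¹ * (o * wc * o⁻¹) ∈ O := by
      have h2 := O.mul_mem (hO.conj_mem o ho wc⁻¹) (O.inv_mem ho)
      rw [inv_inv] at h2
      simpa [mul_assoc] using h2
    have h3 := congrArg Subtype.val (hdisj _ h1 ((D.S : Subgroup X).mul_mem (inv_mem hwS) hvS))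
    have h4 : w⁻¹ * ((o : X) * w * (o : X)⁻¹) = 1 := h3
    rw [hgw, ← inv_mul_eq_one.1 h4]
  refine Subgroup.eq_of_le_of_card_ge ?_ (le_of_eq ?_)
  · rintro _ ⟨u, hu, rfl⟩
    show s * u * s⁻¹ ∈ V
    rw [← hkey u hu, ← h]
    exact ⟨u, hu, rfl⟩
  · rw [← h, Subgroup.card_map_of_injective (MulAut.conj ((o : X) * s)).injective,
      Subgroup.card_map_of_injective (MulAut.conj s).injective]

/-- Conjugate four-groups of `S` are conjugate inside `C(z)`. -/
theorem exists_centralizer_conj (h2 : 2 < D.m) {U V : Subgroup X} (hU : IsKleinFour U) (hV : IsKleinFour V)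
    (hUS : U ≤ (D.S : Subgroup X)) (hVS : V ≤ (D.S : Subgroup X)) {g : X}
    (h : U.map (MulAut.conj g).toMonoidHom = V) :
    ∃ g' ∈ Subgroup.centralizer ({D.z} : Set X), U.map (MulAut.conj g').toMonoidHom = V := by
  have hzU := D.z_mem_klein hU hUS
  have hzV := D.z_mem_klein hV hVS
  set b := g * D.z * g⁻¹ with hb
  have hbV : b ∈ V := h ▸ ⟨D.z, hzU, rfl⟩
  have hb1 : b ≠ 1 := fun e => D.z_ne (conj_eq_one_iff.1 e)
  by_cases hbz : b = D.z
  · refine ⟨g, Subgroup.mem_centralizer_singleton_iff.2 ?_, h⟩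
    exact mul_inv_eq_iff_eq_mul.1 hbz
  obtain ⟨s₂, hs₂, hs₂'⟩ := D.exists_shift h2 hV hVS
  obtain ⟨s, hs, hs'⟩ := D.exists_shift h2 hU hUS
  set k := g * s * g⁻¹ with hk
  have hcommV : ∀ x ∈ V, ∀ y ∈ V, x * y = y * x := fun x hx y hy => by
    rw [← inv_eq_of_mul_eq_one_right (mul_self_klein hV (V.mul_mem hx hy)), mul_inv_rev,
      inv_eq_of_mul_eq_one_right (mul_self_klein hV hy), inv_eq_of_mul_eq_one_right (mul_self_klein hV hx)]
  -- the shift fixing `b`
  have hkv : ∀ v ∈ V, v ≠ 1 → v ≠ b → k * v * k⁻¹ = v * b := by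
    intro v hv hv1 hvb
    rw [← h] at hv
    obtain ⟨u, hu, rfl⟩ := hv
    have e := hs' u hu (fun e => hv1 (by simp [e])) (fun e => hvb (by simp [e, hb]))
    show g * s * g⁻¹ * (g * u * g⁻¹) * (g * s * g⁻¹)⁻¹ = g * u * g⁻¹ * b
    calc g * s * g⁻¹ * (g * u * g⁻¹) * (g * s * g⁻¹)⁻¹ = g * (s * u * s⁻¹) * g⁻¹ := by group
      _ = g * (u * D.z) * g⁻¹ := by rw [e]
      _ = _ := by rw [hb]; group
  have h3 : s₂ * b * s₂⁻¹ = b * D.z := hs₂' b hbV hb1 hbz
  have h4 : k * (b * D.z) * k⁻¹ = D.z := by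
    rw [hkv _ (V.mul_mem hbV hzV) (fun e => hbz (by
      rw [← mul_one b, ← D.z_sq, ← mul_assoc, e, one_mul]))
      (fun e => D.z_ne (mul_eq_left.1 e))]
    rw [hcommV b hbV D.z hzV, mul_assoc, mul_self_klein hV hbV, mul_one]
  have hs₂V : ∀ v ∈ V, s₂ * v * s₂⁻¹ ∈ V := fun v hv => by
    by_cases e1 : v = 1
    · simp [e1]
    by_cases e2 : v = D.z
    · rw [e2, D.z_comm hs₂, mul_inv_cancel_right]; exact hzV
    · rw [hs₂' v hv e1 e2]; exact V.mul_mem hv hzV
  have hkV : ∀ v ∈ V, k * v * k⁻¹ ∈ V := fun v hv => by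
    by_cases e1 : v = 1
    · simp [e1]
    by_cases e2 : v = b
    · rw [e2, hb, hk, show g * s * g⁻¹ * (g * D.z * g⁻¹) * (g * s * g⁻¹)⁻¹ = g * (s * D.z * s⁻¹) * g⁻¹ by group,
        D.z_comm hs, mul_inv_cancel_right]
      exact hbV
    · rw [hkv v hv e1 e2]; exact V.mul_mem hv hbV
  refine ⟨k * s₂ * g, Subgroup.mem_centralizer_singleton_iff.2 (mul_inv_eq_iff_eq_mul.1 ?_),
    Subgroup.eq_of_le_of_card_ge ?_ ?_⟩
  · calc k * s₂ * g * D.z * (k * s₂ * g)⁻¹ = k * (s₂ * b * s₂⁻¹) * k⁻¹ := by rw [hb]; group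
      _ = D.z := by rw [h3, h4]
  · rintro _ ⟨u, hu, rfl⟩
    show k * s₂ * g * u * (k * s₂ * g)⁻¹ ∈ V
    rw [show k * s₂ * g * u * (k * s₂ * g)⁻¹ = k * (s₂ * (g * u * g⁻¹) * s₂⁻¹) * k⁻¹ by group]
    exact hkV _ (hs₂V _ (h ▸ ⟨u, hu, rfl⟩))
  · rw [Subgroup.card_map_of_injective (MulAut.conj (k * s₂ * g)).injective, hU.card_four, hV.card_four]

theorem s_conj_of_conj (h2 : 2 < D.m) {U V : Subgroup X} (hU : IsKleinFour U) (hV : IsKleinFour V)
    (hUS : U ≤ (D.S : Subgroup X)) (hVS : V ≤ (D.S : Subgroup X)) {g : X}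
    (h : U.map (MulAut.conj g).toMonoidHom = V) :
    ∃ s ∈ (D.S : Subgroup X), U.map (MulAut.conj s).toMonoidHom = V := by
  obtain ⟨g', hg', h'⟩ := D.exists_centralizer_conj h2 hU hV hUS hVS h
  exact D.s_conj_of_centralizer hUS hVS hg' h'

omit [Finite X] in
theorem klein_map {U : Subgroup X} (hU : IsKleinFour U) (g : X) :
    IsKleinFour (U.map (MulAut.conj g).toMonoidHom) := by
  have e : U ≃* U.map (MulAut.conj g).toMonoidHom :=
    U.equivMapOfInjective _ (MulAut.conj g).injective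
  exact ⟨by rw [← Nat.card_congr e.toEquiv, hU.card_four],
    by rw [← Monoid.exponent_eq_of_mulEquiv e, hU.exponent_two]⟩

theorem klein_isPGroup {U : Subgroup X} (hU : IsKleinFour U) : IsPGroup 2 U :=
  IsPGroup.of_card (n := 2) (by rw [hU.card_four]; norm_num)

theorem exists_conj_le_S {U : Subgroup X} (hU : IsPGroup 2 U) :
    ∃ x : X, U.map (MulAut.conj x).toMonoidHom ≤ (D.S : Subgroup X) := by
  haveI : Fact (Nat.Prime 2) := ⟨Nat.prime_two⟩
  obtain ⟨R, hR⟩ := hU.exists_le_sylow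
  obtain ⟨x, hx⟩ := MulAction.exists_smul_eq X R D.S
  refine ⟨x, ?_⟩
  rintro _ ⟨u, hu, rfl⟩
  have h : x * u * x⁻¹ ∈ ((x • R : Sylow 2 X) : Subgroup X) := ⟨u, hR hu, rfl⟩
  rw [hx] at h
  exact h

/-- Every involution of `S` lies in a four-group of `S`. -/
theorem exists_four_through {b : X} (hb : b ∈ (D.S : Subgroup X)) (hb2 : orderOf b = 2) :
    ∃ i, b ∈ D.four i := by
  rcases D.involution_cases hb (Invol.mul_self_of_orderOf hb2) with h | h | ⟨i, h⟩
  · rw [h, orderOf_one] at hb2; omega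
  · exact ⟨0, h ▸ D.z_mem_four' 0⟩
  · exact ⟨i, h ▸ D.ss_mem_four i⟩

/-- An involution of a four-group conjugate to `z` is conjugate to it in the normalizer. -/
theorem exists_normalizer_move {U : Subgroup X} (hU : IsKleinFour U) (hUS : U ≤ (D.S : Subgroup X)) {b g : X}
    (hb : b ∈ U) (hg : g * b * g⁻¹ = D.z) :
    ∃ n ∈ Subgroup.normalizer (U : Set X), n * b * n⁻¹ = D.z := by
  haveI : Fact (Nat.Prime 2) := ⟨Nat.prime_two⟩
  set C := Subgroup.centralizer ({D.z} : Set X) with hC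
  have hUg : U.map (MulAut.conj g).toMonoidHom ≤ C := by
    rintro _ ⟨u, hu, rfl⟩
    refine Subgroup.mem_centralizer_singleton_iff.2 ?_
    show g * u * g⁻¹ * D.z = D.z * (g * u * g⁻¹)
    have hub : u * b = b * u := by
      haveI := hU
      have h1 : (⟨u, hu⟩ : U) * ⟨b, hb⟩ = ⟨b, hb⟩ * ⟨u, hu⟩ := by
        obtain ⟨i, rfl⟩ := D.exists_four hU hUS
        exact (Commute.of_orderOf_dvd_two (fun g => orderOf_dvd_of_pow_eq_one
          (by rw [pow_two]; exact IsKleinFour.mul_self g)) _ _).eq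
      exact congrArg Subtype.val h1
    rw [← hg]
    calc g * u * g⁻¹ * (g * b * g⁻¹) = g * (u * b) * g⁻¹ := by group
      _ = _ := by rw [hub]; group
  obtain ⟨R, hR⟩ := (((klein_isPGroup hU).map (MulAut.conj g).toMonoidHom).of_equiv
    (Subgroup.subgroupOfEquivOfLe hUg).symm).exists_le_sylow
  obtain ⟨c, hc⟩ := MulAction.exists_smul_eq C R (D.S.subtype fun x hx => D.mem_centralizer_z hx)
  have hVS : U.map (MulAut.conj ((c : X) * g)).toMonoidHom ≤ (D.S : Subgroup X) := by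
    rintro _ ⟨u, hu, rfl⟩
    have h : c * (⟨g * u * g⁻¹, hUg ⟨u, hu, rfl⟩⟩ : C) * c⁻¹ ∈ ((c • R : Sylow 2 C) : Subgroup C) :=
      ⟨_, hR (show (⟨g * u * g⁻¹, hUg ⟨u, hu, rfl⟩⟩ : C) ∈ Subgroup.subgroupOf _ C from ⟨u, hu, rfl⟩), rfl⟩
    rw [hc] at h
    show (c : X) * g * u * ((c : X) * g)⁻¹ ∈ (D.S : Subgroup X)
    rw [show (c : X) * g * u * ((c : X) * g)⁻¹ = (c : X) * (g * u * g⁻¹) * (c : X)⁻¹ by group]
    exact h
  have hcz : (c : X) * g * b * ((c : X) * g)⁻¹ = D.z := by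
    rw [show (c : X) * g * b * ((c : X) * g)⁻¹ = (c : X) * (g * b * g⁻¹) * (c : X)⁻¹ by group, hg,
      Subgroup.mem_centralizer_singleton_iff.1 c.2, mul_inv_cancel_right]
  obtain ⟨s, hs, hsV⟩ : ∃ s ∈ (D.S : Subgroup X),
      U.map (MulAut.conj s).toMonoidHom = U.map (MulAut.conj ((c : X) * g)).toMonoidHom := by
    rcases D.hm.lt_or_eq with h2 | h2
    · exact D.s_conj_of_conj h2 hU (klein_map hU _) hUS hVS rfl
    · refine ⟨1, one_mem _, ?_⟩
      have hS4 : Nat.card (D.S : Subgroup X) = 4 := by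
        rw [Nat.card_congr D.e.toEquiv, DihedralGroup.nat_card, ← h2]
      have e1 : U = (D.S : Subgroup X) := Subgroup.eq_of_le_of_card_ge hUS (by rw [hS4, hU.card_four])
      have e2 := Subgroup.eq_of_le_of_card_ge hVS (by rw [hS4, (klein_map hU _).card_four])
      rw [e2, map_one]
      exact (Subgroup.map_id U).trans e1
  refine ⟨s⁻¹ * ((c : X) * g), ?_, ?_⟩
  · rw [Subgroup.mem_normalizer_iff_map_conj_eq]
    refine Subgroup.eq_of_le_of_card_ge ?_ (Subgroup.card_map_of_injective (MulAut.conj _).injective).ge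
    rintro _ ⟨u, hu, rfl⟩
    obtain ⟨u', hu', he⟩ := hsV.ge ⟨u, hu, rfl⟩
    have he' : s * u' * s⁻¹ = (c : X) * g * u * ((c : X) * g)⁻¹ := he
    show s⁻¹ * ((c : X) * g) * u * (s⁻¹ * ((c : X) * g))⁻¹ ∈ U
    rw [show s⁻¹ * ((c : X) * g) * u * (s⁻¹ * ((c : X) * g))⁻¹ = s⁻¹ * ((c : X) * g * u * ((c : X) * g)⁻¹) * s by group,
      ← he', show s⁻¹ * (s * u' * s⁻¹) * s = u' by group]
    exact hu'
  · rw [show s⁻¹ * ((c : X) * g) * b * (s⁻¹ * ((c : X) * g))⁻¹ = s⁻¹ * ((c : X) * g * b * ((c : X) * g)⁻¹) * s by group,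
      hcz, D.z_comm (inv_mem hs)]
    group

end Data

end CfsgLib.Invol.DihedralSylow
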