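import Cfsg.Agent.Transfer.Frobenius
import Cfsg.Agent.SylowConj.Basic
import Cfsg.Agent.QDWr.LocalIndex
import Mathlib.GroupTheory.SpecificGroups.Cyclic

/-!
A group whose Sylow 2-subgroups are modular has a normal 2-complement: the automisers of all
2-subgroups are 2-groups.
-/

set_option autoImplicit false
set_option linter.style.haveILetI false
set_option linter.unusedSectionVars false

namespace CfsgLib.Invol.ModularSylow

variable {G : Type*} [Group G] [Finite G]

/-- An element of odd order whose square centralizes `x` centralizes `x`. -/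
theorem fix_of_sq_fix {g x : G} (ho : (orderOf g).Coprime 2) (h : Commute (g ^ 2) x) : Commute g x := by
  obtain ⟨m, hm⟩ := exists_pow_eq_self_of_coprime (x := g) (n := 2) ho.symm
  have h1 := h.pow_left m
  rwa [hm] at h1

theorem fix_cyclic {A : Subgroup G} (hc : IsCyclic A) (hA : IsPGroup 2 A) {g : G}
    (hg : g ∈ Subgroup.normalizer (A : Set G)) (ho : (orderOf g).Coprime 2) {a : G} (ha : a ∈ A) :
    g * a * g⁻¹ = a := by
  haveI : Fact (Nat.Prime 2) := ⟨Nat.prime_two⟩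
  obtain ⟨k, hk⟩ := IsPGroup.iff_card.1 hA
  set φ := A.normalizerMonoidHom ⟨g, hg⟩
  have h1 : orderOf φ ∣ orderOf g := by
    have := orderOf_map_dvd A.normalizerMonoidHom (⟨g, hg⟩ : Subgroup.normalizer (A : Set G))
    rwa [Subgroup.orderOf_mk] at this
  have h2 : orderOf φ ∣ 2 ^ k := by
    refine (orderOf_dvd_natCard φ).trans ?_
    haveI := hc
    rw [IsCyclic.card_mulAut, hk]
    rcases k with _ | k
    · simp
    · rw [Nat.totient_prime_pow_succ Nat.prime_two]; simp [pow_succ]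
  have h3 : φ = 1 := orderOf_eq_one_iff.1 (Nat.eq_one_of_dvd_coprimes (ho.pow_right k) h1 h2)
  have h4 : φ ⟨a, ha⟩ = ⟨a, ha⟩ := by rw [h3]; rfl
  exact congrArg Subtype.val h4

variable (S : Sylow 2 G) {n : ℕ} (hn : 3 ≤ n) (hS : Nat.card ↥(S : Subgroup G) = 2 ^ (n + 1))
    {a b : G} (ha : a ∈ (S : Subgroup G)) (hb : b ∈ (S : Subgroup G))
    (hao : orderOf a = 2 ^ n) (hbo : orderOf b = 2) (hrel : b * a * b⁻¹ = a ^ (2 ^ (n - 1) + 1))

include hn hS ha hb hao hbo hrel

theorem two_pow_eq : 2 ^ n = 2 * 2 ^ (n - 1) := by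
  rw [← pow_succ']; congr 1; omega

theorem b_sq : b * b = 1 := by rw [← pow_two, ← hbo, pow_orderOf_eq_one]

theorem z_sq : a ^ 2 ^ (n - 1) * a ^ 2 ^ (n - 1) = 1 := by
  rw [← pow_add, ← two_mul, ← two_pow_eq S hn hS ha hb hao hbo hrel, ← hao, pow_orderOf_eq_one]

theorem z_ne : a ^ 2 ^ (n - 1) ≠ 1 := fun h => by
  have h1 := Nat.le_of_dvd (by positivity) (orderOf_dvd_of_pow_eq_one h)
  rw [hao] at h1
  have : 2 ^ (n - 1) < 2 ^ n := Nat.pow_lt_pow_right (by norm_num) (by omega)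
  omega

theorem b_conj (i : ℕ) : b * a ^ i * b⁻¹ = a ^ ((2 ^ (n - 1) + 1) * i) := by
  rw [← conj_pow, hrel, ← pow_mul]

theorem b_notMem : b ∉ Subgroup.zpowers a := by
  intro h
  obtain ⟨k, hk⟩ := Subgroup.mem_zpowers_iff.1 h
  have hc : b * a * b⁻¹ = a := by
    rw [← hk, mul_inv_eq_iff_eq_mul]
    exact ((Commute.refl a).zpow_left k).eq
  rw [hrel, pow_succ, mul_eq_right] at hc
  exact z_ne S hn hS ha hb hao hbo hrel hc

theorem cases_mem {x : G} (hx : x ∈ (S : Subgroup G)) : ∃ i : ℕ, x = a ^ i ∨ x = a ^ i * b := by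
  haveI : Fact (Nat.Prime 2) := ⟨Nat.prime_two⟩
  have hle : Subgroup.zpowers a ≤ (S : Subgroup G) := Subgroup.zpowers_le.2 ha
  have hidx : ((Subgroup.zpowers a).subgroupOf (S : Subgroup G)).index = 2 := by
    have h1 := Subgroup.card_mul_index ((Subgroup.zpowers a).subgroupOf (S : Subgroup G))
    rw [Nat.card_congr (Subgroup.subgroupOfEquivOfLe hle).toEquiv, Nat.card_zpowers, hao, hS, pow_succ] at h1
    exact Nat.eq_of_mul_eq_mul_left (pow_pos two_pos n) h1
  have hpow : ∀ y ∈ Subgroup.zpowers a, ∃ i : ℕ, y = a ^ i := fun y hy => by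
    rw [← mem_powers_iff_mem_zpowers] at hy
    obtain ⟨i, hi⟩ := hy
    exact ⟨i, hi.symm⟩
  by_cases h : x ∈ Subgroup.zpowers a
  · obtain ⟨i, hi⟩ := hpow x h
    exact ⟨i, Or.inl hi⟩
  · have h1 := (Subgroup.mul_mem_iff_of_index_two hidx (a := (⟨x, hx⟩ : (S : Subgroup G))) (b := ⟨b, hb⟩)).2
      (iff_of_false (fun e => h e) (fun e => b_notMem S hn hS ha hb hao hbo hrel e))
    obtain ⟨i, hi⟩ := hpow (x * b) h1
    exact ⟨i, Or.inr (by rw [← hi, mul_assoc _ b b, b_sq S hn hS ha hb hao hbo hrel, mul_one])⟩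

theorem mul_b_sq (i : ℕ) : a ^ i * b * (a ^ i * b) = a ^ ((2 ^ (n - 1) + 2) * i) := by
  rw [show (2 ^ (n - 1) + 2) * i = i + (2 ^ (n - 1) + 1) * i by ring, pow_add,
    ← b_conj S hn hS ha hb hao hbo hrel,
    inv_eq_of_mul_eq_one_right (b_sq S hn hS ha hb hao hbo hrel)]
  simp only [mul_assoc]

theorem b_comm_even {i : ℕ} (hi : Even i) : Commute b (a ^ i) := by
  obtain ⟨j, rfl⟩ := hi
  refine mul_inv_eq_iff_eq_mul.1 ?_
  rw [b_conj S hn hS ha hb hao hbo hrel, add_mul, one_mul, pow_add, ← two_mul, ← mul_assoc,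
    mul_comm (2 ^ (n - 1)) 2, pow_mul, ← two_pow_eq S hn hS ha hb hao hbo hrel, ← hao, pow_orderOf_eq_one,
    one_pow, one_mul]

theorem involution_cases {x : G} (hx : x ∈ (S : Subgroup G)) (h : x * x = 1) :
    x = 1 ∨ x = a ^ 2 ^ (n - 1) ∨ x = b ∨ x = a ^ 2 ^ (n - 1) * b := by
  have key : ∀ i : ℕ, 2 ^ (n - 1) ∣ i → a ^ i = 1 ∨ a ^ i = a ^ 2 ^ (n - 1) := fun i ⟨j, hj⟩ => by
    rw [hj, pow_mul]
    rcases Nat.even_or_odd j with ⟨t, rfl⟩ | ⟨t, rfl⟩
    · exact Or.inl (by rw [← two_mul, pow_mul, pow_two, z_sq S hn hS ha hb hao hbo hrel, one_pow])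
    · exact Or.inr (by rw [pow_succ, pow_mul, pow_two, z_sq S hn hS ha hb hao hbo hrel, one_pow, one_mul])
  have h2 := two_pow_eq S hn hS ha hb hao hbo hrel
  obtain ⟨i, rfl | rfl⟩ := cases_mem S hn hS ha hb hao hbo hrel hx
  · rw [← pow_add, ← two_mul] at h
    have hd := orderOf_dvd_of_pow_eq_one h
    rw [hao, h2] at hd
    rcases key i (Nat.dvd_of_mul_dvd_mul_left two_pos hd) with e | e
    exacts [Or.inl e, Or.inr (Or.inl e)]
  · rw [mul_b_sq S hn hS ha hb hao hbo hrel] at h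
    have hd := orderOf_dvd_of_pow_eq_one h
    have h3 : 2 ^ (n - 1) + 2 = 2 * (2 ^ (n - 2) + 1) := by
      rw [mul_add, ← pow_succ', show n - 2 + 1 = n - 1 by omega]
    rw [hao, h2, h3, mul_assoc] at hd
    have hd' := (Nat.Coprime.pow_left (n - 1) (show Nat.Coprime 2 (2 ^ (n - 2) + 1) from
      Nat.coprime_two_left.2 ((Nat.even_pow.2 ⟨even_two, by omega⟩).add_one))).dvd_of_dvd_mul_left
      (Nat.dvd_of_mul_dvd_mul_left two_pos hd)
    rcases key i hd' with e | e
    · exact Or.inr (Or.inr (Or.inl (by rw [e, one_mul])))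
    · exact Or.inr (Or.inr (Or.inr (by rw [e])))

theorem z_mem_of_ne_one {y : G} (hy : y ∈ Subgroup.zpowers a) (hne : y ≠ 1) :
    a ^ 2 ^ (n - 1) ∈ Subgroup.zpowers y := by
  haveI : Fact (Nat.Prime 2) := ⟨Nat.prime_two⟩
  rw [← mem_powers_iff_mem_zpowers] at hy
  obtain ⟨i, rfl⟩ := hy
  have hd : orderOf (a ^ i) ∣ 2 ^ n := by rw [← hao]; exact orderOf_pow_dvd i
  obtain ⟨k, hk, hok⟩ := (Nat.dvd_prime_pow Nat.prime_two).1 hd
  have hk0 : k ≠ 0 := fun e => hne (orderOf_eq_one_iff.1 (by rw [hok, e, pow_zero]))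
  have h1 : (a ^ i) ^ 2 ^ (k - 1) * (a ^ i) ^ 2 ^ (k - 1) = 1 := by
    rw [← pow_add, ← two_mul, ← pow_succ', show k - 1 + 1 = k by omega, ← hok, pow_orderOf_eq_one]
  have h2 : (a ^ i) ^ 2 ^ (k - 1) ≠ 1 := fun e => by
    have h3 := Nat.le_of_dvd (by positivity) (orderOf_dvd_of_pow_eq_one e)
    rw [hok] at h3
    have : 2 ^ (k - 1) < 2 ^ k := Nat.pow_lt_pow_right (by norm_num) (by omega)
    omega
  have hmem : (a ^ i) ^ 2 ^ (k - 1) ∈ Subgroup.zpowers a :=
    (Subgroup.zpowers a).pow_mem ((Subgroup.zpowers a).pow_mem (Subgroup.mem_zpowers a) _) _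
  have hb' := b_notMem S hn hS ha hb hao hbo hrel
  rcases involution_cases S hn hS ha hb hao hbo hrel (Subgroup.zpowers_le.2 ha hmem) h1 with e | e | e | e
  · exact absurd e h2
  · exact e ▸ (Subgroup.zpowers _).pow_mem (Subgroup.mem_zpowers _) _
  · exact absurd (e ▸ hmem) hb'
  · exfalso
    apply hb'
    have h4 := (Subgroup.zpowers a).mul_mem
      ((Subgroup.zpowers a).inv_mem ((Subgroup.zpowers a).pow_mem (Subgroup.mem_zpowers a) (2 ^ (n - 1)))) hmem
    rw [e, inv_mul_cancel_left] at h4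
    exact h4

theorem z_comm {x : G} (hx : x ∈ (S : Subgroup G)) : Commute (a ^ 2 ^ (n - 1)) x := by
  have h1 : Commute b (a ^ 2 ^ (n - 1)) :=
    b_comm_even S hn hS ha hb hao hbo hrel (Nat.even_pow.2 ⟨even_two, by omega⟩)
  obtain ⟨i, rfl | rfl⟩ := cases_mem S hn hS ha hb hao hbo hrel hx
  · exact (Commute.refl a).pow_pow _ _
  · exact ((Commute.refl a).pow_pow _ _).mul_right h1.symm

/-- Whatever maps an involution of `S` to `z` fixes `z`. -/
theorem conj_z {g : G} (hu : g⁻¹ * a ^ 2 ^ (n - 1) * g ∈ (S : Subgroup G)) :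
    g * a ^ 2 ^ (n - 1) * g⁻¹ = a ^ 2 ^ (n - 1) := by
  haveI : Fact (Nat.Prime 2) := ⟨Nat.prime_two⟩
  set z := a ^ 2 ^ (n - 1) with hz
  set H := Subgroup.centralizer ({z} : Set G) with hH
  have hSH : (S : Subgroup G) ≤ H := fun x hx => by
    rw [hH, Subgroup.mem_centralizer_singleton_iff]
    exact (z_comm S hn hS ha hb hao hbo hrel hx).eq.symm
  have hzz : z * z = 1 := z_sq S hn hS ha hb hao hbo hrel
  have hba : Commute b (a ^ 2) := b_comm_even S hn hS ha hb hao hbo hrel ⟨1, rfl⟩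
  have hu2 : Commute (g⁻¹ * z * g) (a ^ 2) := by
    rcases involution_cases S hn hS ha hb hao hbo hrel hu (by
      rw [show g⁻¹ * z * g * (g⁻¹ * z * g) = g⁻¹ * (z * z) * g by group, hzz]; group)
      with e | e | e | e <;> rw [e]
    · exact Commute.one_left _
    · exact (Commute.refl a).pow_pow _ _
    · exact hba
    · exact ((Commute.refl a).pow_pow _ _).mul_left hba
  have hA : g * a ^ 2 * g⁻¹ ∈ H := by
    rw [hH, Subgroup.mem_centralizer_singleton_iff]
    calc g * a ^ 2 * g⁻¹ * z = g * (a ^ 2 * (g⁻¹ * z * g)) * g⁻¹ := by group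
      _ = g * (g⁻¹ * z * g * a ^ 2) * g⁻¹ := by rw [hu2.eq]
      _ = z * (g * a ^ 2 * g⁻¹) := by group
  have hpg : IsPGroup 2 (Subgroup.zpowers (g * a ^ 2 * g⁻¹)) := by
    have : Subgroup.zpowers (g * a ^ 2 * g⁻¹) =
        (Subgroup.zpowers (a ^ 2)).map (MulAut.conj g).toMonoidHom := by
      rw [MonoidHom.map_zpowers]; rfl
    rw [this]
    exact (S.2.to_le (Subgroup.zpowers_le.2 ((S : Subgroup G).pow_mem ha 2))).map _
  obtain ⟨k, hk, hkS⟩ := CfsgLib.SylowConj.exists_conj_mem H S hSH _ hpg (Subgroup.zpowers_le.2 hA)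
  obtain ⟨y, hy, hyeq⟩ : ∃ y ∈ (S : Subgroup G), y ^ 2 ^ (n - 2) = k * (g * z * g⁻¹) * k⁻¹ := by
    refine ⟨_, hkS _ (Subgroup.mem_zpowers _), ?_⟩
    rw [conj_pow, conj_pow, ← pow_mul, ← pow_succ', show n - 2 + 1 = n - 1 by omega]
  have hne : k * (g * z * g⁻¹) * k⁻¹ ≠ 1 := fun e =>
    z_ne S hn hS ha hb hao hbo hrel (conj_eq_one_iff.1 (conj_eq_one_iff.1 e))
  have hmem : y ^ 2 ^ (n - 2) ∈ Subgroup.zpowers a := by
    rw [show n - 2 = n - 3 + 1 by omega, pow_succ', pow_mul]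
    refine (Subgroup.zpowers a).pow_mem ?_ _
    rw [pow_two]
    obtain ⟨i, rfl | rfl⟩ := cases_mem S hn hS ha hb hao hbo hrel hy
    · exact (Subgroup.zpowers a).mul_mem ((Subgroup.zpowers a).pow_mem (Subgroup.mem_zpowers a) _)
        ((Subgroup.zpowers a).pow_mem (Subgroup.mem_zpowers a) _)
    · rw [mul_b_sq S hn hS ha hb hao hbo hrel]
      exact (Subgroup.zpowers a).pow_mem (Subgroup.mem_zpowers a) _
  have hsq : y ^ 2 ^ (n - 2) * y ^ 2 ^ (n - 2) = 1 := by
    rw [hyeq, show k * (g * z * g⁻¹) * k⁻¹ * (k * (g * z * g⁻¹) * k⁻¹) = k * (g * (z * z) * g⁻¹) * k⁻¹ by group,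
      hzz]
    group
  have hb' := b_notMem S hn hS ha hb hao hbo hrel
  have h5 : k * (g * z * g⁻¹) * k⁻¹ = z := by
    rw [← hyeq]
    rcases involution_cases S hn hS ha hb hao hbo hrel ((S : Subgroup G).pow_mem hy _) hsq with e | e | e | e
    · exact absurd (hyeq ▸ e) hne
    · exact e
    · exact absurd (e ▸ hmem) hb'
    · exfalso
      apply hb'
      have h4 := (Subgroup.zpowers a).mul_mem
        ((Subgroup.zpowers a).inv_mem ((Subgroup.zpowers a).pow_mem (Subgroup.mem_zpowers a) (2 ^ (n - 1)))) hmem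
      rw [e, inv_mul_cancel_left] at h4
      exact h4
  rw [hH, Subgroup.mem_centralizer_singleton_iff] at hk
  calc g * z * g⁻¹ = k⁻¹ * (k * (g * z * g⁻¹) * k⁻¹) * k := by group
    _ = k⁻¹ * (z * k) := by rw [h5]; group
    _ = z := by rw [← hk]; group

/-- A subgroup of `S` meeting `{b, zb}` trivially is cyclic. -/
theorem isCyclic_of_notMem {Q : Subgroup G} (hQ : Q ≤ (S : Subgroup G)) (hbQ : b ∉ Q) : IsCyclic Q := by
  haveI : Fact (Nat.Prime 2) := ⟨Nat.prime_two⟩
  have hb' := b_notMem S hn hS ha hb hao hbo hrel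
  by_cases hodd : ∃ i : ℕ, Odd i ∧ (a ^ i ∈ Q ∨ a ^ i * b ∈ Q)
  · obtain ⟨i, hi, hiQ⟩ := hodd
    have hlt : Q ≠ (S : Subgroup G) := fun e => hbQ (e ▸ hb)
    obtain ⟨x, hxQ, hxo⟩ : ∃ x ∈ Q, orderOf x = 2 ^ n := by
      rcases hiQ with h | h
      · exact ⟨_, h, by rw [Nat.Coprime.orderOf_pow (by rw [hao]; exact Nat.Coprime.pow_left _ (Nat.coprime_two_left.2 hi)), hao]⟩
      · refine ⟨_, h, ?_⟩
        rw [show n = n - 1 + 1 by omega]
        refine orderOf_eq_prime_pow (p := 2) ?_ ?_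
        · have hyz : (a ^ i * b) ^ 2 ^ (n - 1) = a ^ 2 ^ (n - 1) := by
            have e1 : 2 ^ (n - 1) = 2 * 2 ^ (n - 2) := by rw [← pow_succ']; congr 1; omega
            have h6 : Odd ((2 ^ (n - 2) + 1) * i) := ((Nat.even_pow.2 ⟨even_two, by omega⟩).add_one).mul hi
            obtain ⟨t, ht⟩ := h6
            calc (a ^ i * b) ^ 2 ^ (n - 1) = ((a ^ i * b) ^ 2) ^ 2 ^ (n - 2) := by rw [← pow_mul, e1]
              _ = a ^ (2 ^ (n - 1) * ((2 ^ (n - 2) + 1) * i)) := by
                rw [pow_two, mul_b_sq S hn hS ha hb hao hbo hrel, ← pow_mul, e1]; congr 1; ring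
              _ = a ^ 2 ^ (n - 1) := by
                rw [ht, mul_add, mul_one, pow_add, pow_mul, pow_mul, pow_two,
                  z_sq S hn hS ha hb hao hbo hrel, one_pow, one_mul]
          rw [hyz]
          exact z_ne S hn hS ha hb hao hbo hrel
        · rw [show n - 1 + 1 = n by omega, show n = 1 + (n - 1) by omega, pow_add, pow_one, pow_mul, pow_two,
            mul_b_sq S hn hS ha hb hao hbo hrel, ← pow_mul,
            show (2 ^ (n - 1) + 2) * i * 2 ^ (n - 1) = 2 * 2 ^ (n - 1) * ((2 ^ (n - 2) + 1) * i) by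
              rw [show n - 1 = n - 2 + 1 by omega]; ring,
            ← two_pow_eq S hn hS ha hb hao hbo hrel, pow_mul, ← hao, pow_orderOf_eq_one, one_pow]
    have hcardle : Nat.card Q ≤ 2 ^ n := by
      obtain ⟨k, hk, hkc⟩ := (Nat.dvd_prime_pow Nat.prime_two).1 (hS ▸ Subgroup.card_dvd_of_le hQ)
      have : k ≠ n + 1 := fun e => hlt (Subgroup.eq_of_le_of_card_ge hQ (by rw [hS, hkc, e]))
      rw [hkc]
      exact Nat.pow_le_pow_right (by norm_num) (by omega)
    have : Subgroup.zpowers x = Q := Subgroup.eq_of_le_of_card_ge (Subgroup.zpowers_le.2 hxQ)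
      (by rw [Nat.card_zpowers, hxo]; exact hcardle)
    rw [← this]
    infer_instance
  · push Not at hodd
    have hsplit : ∀ q : Q, (q : G) ∈ Subgroup.zpowers a ∧ Commute b (q : G) ∨
        (q : G) * b ∈ Subgroup.zpowers a ∧ (q : G) ∉ Subgroup.zpowers a ∧ Commute b (q : G) := by
      intro q
      obtain ⟨i, hi⟩ := cases_mem S hn hS ha hb hao hbo hrel (hQ q.2)
      have hie : Even i := by
        by_contra hne
        rcases hi with e | e
        · exact (hodd i (Nat.not_even_iff_odd.1 hne)).1 (e ▸ q.2)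
        · exact (hodd i (Nat.not_even_iff_odd.1 hne)).2 (e ▸ q.2)
      have hcm := b_comm_even S hn hS ha hb hao hbo hrel hie
      rcases hi with e | e
      · exact Or.inl ⟨e ▸ (Subgroup.zpowers a).pow_mem (Subgroup.mem_zpowers a) i, e ▸ hcm⟩
      · refine Or.inr ⟨?_, fun h => hb' ?_, ?_⟩
        · rw [e, mul_assoc, b_sq S hn hS ha hb hao hbo hrel, mul_one]
          exact (Subgroup.zpowers a).pow_mem (Subgroup.mem_zpowers a) i
        · rw [e] at h
          exact (Subgroup.mul_mem_cancel_left _ ((Subgroup.zpowers a).pow_mem (Subgroup.mem_zpowers a) i)).1 h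
        · rw [e]; exact hcm.mul_right (Commute.refl b)
    classical
    let f : Q → G := fun q => if (q : G) ∈ Subgroup.zpowers a then (q : G) else (q : G) * b
    have hfmem : ∀ q, f q ∈ Subgroup.zpowers a := fun q => by
      simp only [f]
      rcases hsplit q with ⟨h, -⟩ | ⟨h, h', -⟩
      · rwa [if_pos h]
      · rwa [if_neg h']
    have hmul : ∀ q r : Q, f (q * r) = f q * f r := fun q r => by
      simp only [f, Subgroup.coe_mul]
      rcases hsplit q with ⟨hq, hqc⟩ | ⟨hq, hq', hqc⟩ <;> rcases hsplit r with ⟨hr, hrc⟩ | ⟨hr, hr', hrc⟩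
      · rw [if_pos hq, if_pos hr, if_pos ((Subgroup.zpowers a).mul_mem hq hr)]
      · rw [if_pos hq, if_neg hr', if_neg (fun h => hr' ((Subgroup.mul_mem_cancel_left _ hq).1 h)), mul_assoc]
      · rw [if_neg hq', if_pos hr, if_neg (fun h => hq' ((Subgroup.mul_mem_cancel_right _ hr).1 h)),
          mul_assoc, mul_assoc, hrc.eq]
      · have he : (q : G) * b * ((r : G) * b) = (q : G) * (r : G) := by
          rw [← hrc.eq, mul_assoc, ← mul_assoc b b, b_sq S hn hS ha hb hao hbo hrel, one_mul]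
        rw [if_neg hq', if_neg hr', he, if_pos (he ▸ (Subgroup.zpowers a).mul_mem hq hr)]
    let F : Q →* Subgroup.zpowers a := MonoidHom.mk' (fun q => ⟨f q, hfmem q⟩) fun q r => Subtype.ext (hmul q r)
    refine isCyclic_of_injective F ((injective_iff_map_eq_one F).2 fun q hq => ?_)
    have h1 : f q = 1 := congrArg Subtype.val hq
    simp only [f] at h1
    split_ifs at h1 with h
    · exact Subtype.ext h1
    · exfalso
      apply hbQ
      have h7 := q.2
      rwa [eq_inv_of_mul_eq_one_left h1, inv_eq_of_mul_eq_one_right (b_sq S hn hS ha hb hao hbo hrel)] at h7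

theorem fixes {Q : Subgroup G} (hQ : Q ≤ (S : Subgroup G)) {g : G} (hg : g ∈ Subgroup.normalizer (Q : Set G))
    (ho : (orderOf g).Coprime 2) : g ∈ Subgroup.centralizer (Q : Set G) := by
  haveI : Fact (Nat.Prime 2) := ⟨Nat.prime_two⟩
  rw [Subgroup.mem_centralizer_iff]
  suffices hfix : ∀ x ∈ Q, g * x * g⁻¹ = x from fun x hx => (mul_inv_eq_iff_eq_mul.1 (hfix x hx)).symm
  have hconj : ∀ x ∈ Q, g * x * g⁻¹ ∈ Q := fun x hx => (Subgroup.mem_normalizer_iff.1 hg x).1 hx
  by_cases hbQ : b ∈ Q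
  swap
  · exact fun x hx =>
      fix_cyclic (isCyclic_of_notMem S hn hS ha hb hao hbo hrel hQ hbQ) (S.2.to_le hQ) hg ho hx
  set z := a ^ 2 ^ (n - 1) with hz
  have hb1 : b ≠ 1 := fun e => b_notMem S hn hS ha hb hao hbo hrel (e ▸ Subgroup.one_mem _)
  set A := Q ⊓ Subgroup.zpowers a with hA
  have hsplit : ∀ x ∈ Q, x ∈ A ∨ x * b ∈ A := fun x hx => by
    obtain ⟨i, e | e⟩ := cases_mem S hn hS ha hb hao hbo hrel (hQ hx)
    · exact Or.inl ⟨hx, e ▸ (Subgroup.zpowers a).pow_mem (Subgroup.mem_zpowers a) i⟩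
    · refine Or.inr ⟨Q.mul_mem hx hbQ, ?_⟩
      rw [e, mul_assoc, b_sq S hn hS ha hb hao hbo hrel, mul_one]
      exact (Subgroup.zpowers a).pow_mem (Subgroup.mem_zpowers a) i
  by_cases hzQ : z ∈ Q
  swap
  · have hA1 : ∀ x ∈ A, x = 1 := fun x hx => by
      by_contra hne
      exact hzQ (Subgroup.zpowers_le.2 hx.1 (z_mem_of_ne_one S hn hS ha hb hao hbo hrel hx.2 hne))
    have hbb : ∀ x ∈ Q, x = 1 ∨ x = b := fun x hx => by
      rcases hsplit x hx with h | h
      · exact Or.inl (hA1 x h)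
      · exact Or.inr (by rw [eq_inv_of_mul_eq_one_left (hA1 _ h),
          inv_eq_of_mul_eq_one_right (b_sq S hn hS ha hb hao hbo hrel)])
    intro x hx
    rcases hbb x hx with rfl | rfl
    · group
    · exact (hbb _ (hconj _ hx)).resolve_left fun e => hb1 (conj_eq_one_iff.1 e)
  have hgz : g * z * g⁻¹ = z := conj_z S hn hS ha hb hao hbo hrel (hQ (by
    have h := (Subgroup.mem_normalizer_iff.1 ((Subgroup.normalizer _).inv_mem hg) z).1 hzQ
    rwa [inv_inv] at h))
  have hgb : g * b * g⁻¹ = b := by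
    have hsq : g * b * g⁻¹ * (g * b * g⁻¹) = 1 := by
      rw [show g * b * g⁻¹ * (g * b * g⁻¹) = g * (b * b) * g⁻¹ by group, b_sq S hn hS ha hb hao hbo hrel]
      group
    rcases involution_cases S hn hS ha hb hao hbo hrel (hQ (hconj b hbQ)) hsq with e | e | e | e
    · exact absurd (conj_eq_one_iff.1 e) hb1
    · exfalso
      rw [← hz] at e
      exact b_notMem S hn hS ha hb hao hbo hrel
        ((mul_left_cancel (mul_right_cancel (e.trans hgz.symm))) ▸
          (Subgroup.zpowers a).pow_mem (Subgroup.mem_zpowers a) _)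
    · exact e
    · have h2 : Commute (g ^ 2) b := by
        refine mul_inv_eq_iff_eq_mul.1 ?_
        rw [show g ^ 2 * b * (g ^ 2)⁻¹ = g * (g * b * g⁻¹) * g⁻¹ by
          rw [pow_two, mul_inv_rev]; simp only [mul_assoc], e, ← hz,
          show g * (z * b) * g⁻¹ = g * z * g⁻¹ * (g * b * g⁻¹) by group, hgz, e, ← hz, ← mul_assoc,
          z_sq S hn hS ha hb hao hbo hrel, one_mul]
      exact mul_inv_eq_iff_eq_mul.2 (fix_of_sq_fix ho h2).eq
  have hgbc : Commute g b := mul_inv_eq_iff_eq_mul.1 hgb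
  haveI := Subgroup.isCyclic_of_le (inf_le_right : A ≤ Subgroup.zpowers a)
  obtain ⟨c, hc⟩ := IsCyclic.exists_generator (α := A)
  have hcA : ∀ x ∈ A, ∃ i : ℕ, x = (c : G) ^ i := fun x hx => by
    obtain ⟨i, hi⟩ := mem_powers_iff_mem_zpowers.2 (hc ⟨x, hx⟩)
    exact ⟨i, (congrArg Subtype.val hi).symm⟩
  have hgc : g * (c : G) * g⁻¹ = c := by
    by_cases hc2 : (c : G) * c = 1
    · rcases involution_cases S hn hS ha hb hao hbo hrel (hQ c.2.1) hc2 with e | e | e | e <;> rw [e]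
      · group
      · exact hgz
      · exact hgb
      · rw [← hz, show g * (z * b) * g⁻¹ = g * z * g⁻¹ * (g * b * g⁻¹) by group, hgz, hgb]
    have hcase : ∀ k : G, k ∈ Subgroup.normalizer (Q : Set G) → (orderOf k).Coprime 2 →
        k * (c : G) * k⁻¹ ∈ A → k * (c : G) * k⁻¹ = c := fun k _ hko hkc => by
      refine fix_cyclic (Subgroup.isCyclic_of_le (inf_le_right : A ≤ Subgroup.zpowers a))
        (S.2.to_le (inf_le_left.trans hQ)) (QDWr.conj_mem_normalizer fun x hx => ?_) hko c.2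
      obtain ⟨i, rfl⟩ := hcA x hx
      rw [← conj_pow]
      exact A.pow_mem hkc i
    rcases hsplit _ (hconj _ c.2.1) with h | h
    · exact hcase g hg ho h
    · obtain ⟨i, hi⟩ := hcA _ h
      have hgi : g * (c : G) * g⁻¹ = (c : G) ^ i * b := by
        rw [← hi, mul_assoc _ b b, b_sq S hn hS ha hb hao hbo hrel, mul_one]
      obtain ⟨j, hj⟩ := (mem_powers_iff_mem_zpowers.2 c.2.2 : (c : G) ∈ Submonoid.powers a)
      have hio : Odd i := by
        by_contra hie
        rw [Nat.not_odd_iff_even] at hie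
        have hci : Commute b ((c : G) ^ i) := by
          rw [← hj, ← pow_mul]
          exact b_comm_even S hn hS ha hb hao hbo hrel (hie.mul_left j)
        obtain ⟨k, hk⟩ := S.2 ⟨c, hQ c.2.1⟩
        have hkc : (c : G) ^ 2 ^ k = 1 := congrArg Subtype.val hk
        obtain ⟨e, he, hoe⟩ := (Nat.dvd_prime_pow Nat.prime_two).1 (orderOf_dvd_of_pow_eq_one hkc)
        have he2 : 2 ≤ e := by
          by_contra hlt
          interval_cases e
          · have h9 : (c : G) = 1 := orderOf_eq_one_iff.1 (by rw [hoe, pow_zero])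
            exact hc2 (by rw [h9, one_mul])
          · exact hc2 (by rw [← pow_two]; rw [pow_one] at hoe; rw [← hoe, pow_orderOf_eq_one])
        obtain ⟨t, rfl⟩ := hie
        have h1 : (g * (c : G) * g⁻¹) ^ 2 ^ (e - 1) = 1 := by
          rw [hgi, hci.symm.mul_pow, ← pow_mul,
            show (t + t) * 2 ^ (e - 1) = 2 ^ e * t by
              conv_rhs => rw [show e = e - 1 + 1 by omega]
              ring,
            pow_mul, ← hoe, pow_orderOf_eq_one, one_pow, one_mul,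
            show e - 1 = e - 2 + 1 by omega, pow_succ', pow_mul, pow_two, b_sq S hn hS ha hb hao hbo hrel,
            one_pow]
        have h2 := Nat.le_of_dvd (by positivity) (orderOf_dvd_of_pow_eq_one h1)
        rw [show orderOf (g * (c : G) * g⁻¹) = orderOf (c : G) from
          orderOf_injective (MulAut.conj g).toMonoidHom (MulAut.conj g).injective (c : G), hoe] at h2
        have : 2 ^ (e - 1) < 2 ^ e := Nat.pow_lt_pow_right (by norm_num) (by omega)
        omega
      have h2mem : g ^ 2 * (c : G) * (g ^ 2)⁻¹ ∈ A := by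
        obtain ⟨t, rfl⟩ := hio
        have hstep : g ^ 2 * (c : G) * (g ^ 2)⁻¹ = ((c : G) ^ (2 * t + 1) * b) ^ (2 * t + 1) * b := by
          rw [show g ^ 2 * (c : G) * (g ^ 2)⁻¹ = g * (g * c * g⁻¹) * g⁻¹ by
            rw [pow_two, mul_inv_rev]; simp only [mul_assoc], hgi]
          calc g * ((c : G) ^ (2 * t + 1) * b) * g⁻¹
              = g * (c : G) ^ (2 * t + 1) * g⁻¹ * (g * b * g⁻¹) := by group
            _ = (g * (c : G) * g⁻¹) ^ (2 * t + 1) * b := by rw [conj_pow, hgb]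
            _ = _ := by rw [hgi]
        have hsq : ((c : G) ^ (2 * t + 1) * b) ^ 2 ∈ A := by
          refine ⟨Q.pow_mem (Q.mul_mem (Q.pow_mem c.2.1 _) hbQ) 2, ?_⟩
          rw [← hj, ← pow_mul, pow_two, mul_b_sq S hn hS ha hb hao hbo hrel]
          exact (Subgroup.zpowers a).pow_mem (Subgroup.mem_zpowers a) _
        rw [hstep, pow_succ, pow_mul, mul_assoc, mul_assoc, b_sq S hn hS ha hb hao hbo hrel, mul_one]
        exact A.mul_mem (A.pow_mem hsq _) (A.pow_mem c.2 _)
      have h3 := hcase (g ^ 2) ((Subgroup.normalizer _).pow_mem hg 2)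
        (ho.coprime_dvd_left (orderOf_pow_dvd 2)) h2mem
      exact mul_inv_eq_iff_eq_mul.2 (fix_of_sq_fix ho (mul_inv_eq_iff_eq_mul.1 h3)).eq
  intro x hx
  have hA' : ∀ y ∈ A, g * y * g⁻¹ = y := fun y hy => by
    obtain ⟨i, rfl⟩ := hcA y hy
    rw [← conj_pow, hgc]
  rcases hsplit x hx with h | h
  · exact hA' x h
  · calc g * x * g⁻¹ = g * (x * b) * g⁻¹ * (g * b⁻¹ * g⁻¹) := by group
      _ = x * b * b⁻¹ := by
        rw [hA' _ h, show g * b⁻¹ * g⁻¹ = (g * b * g⁻¹)⁻¹ by group, hgb]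
      _ = x := by group

theorem hasNormalPComplement : Cfsg.HasNormalPComplement 2 G := by
  haveI : Fact (Nat.Prime 2) := ⟨Nat.prime_two⟩
  exact Transfer.frobenius_normal_complement (Transfer.locallyTrivial_of_sylow S fun Q hQ g hg ho =>
    fixes S hn hS ha hb hao hbo hrel hQ hg ho)

end CfsgLib.Invol.ModularSylow
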