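import Cfsg.Agent.Invol.Dihedral
import Mathlib.GroupTheory.PGroup
import Mathlib.GroupTheory.Sylow

/-!
The 2-part of the dihedral group of two involutions.
-/

namespace CfsgLib.Invol

variable {G : Type*} [Group G] {x y : G}

theorem isPGroup_closure_pair (hx : x * x = 1) (hy : y * y = 1) {k : ℕ}
    (hk : orderOf (x * y) ∣ 2 ^ k) : IsPGroup 2 (Subgroup.closure ({x, y} : Set G)) := by
  intro d
  refine ⟨k + 1, Subtype.ext ?_⟩
  rw [SubmonoidClass.coe_pow, OneMemClass.coe_one]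
  obtain ⟨i, hi | hi⟩ := mem_closure_pair hx hy d.2
  · rw [hi, ← zpow_natCast, ← zpow_mul, mul_comm, zpow_mul, zpow_natCast, pow_succ, pow_mul,
      orderOf_dvd_iff_pow_eq_one.1 hk, one_pow, one_zpow]
  · rw [hi, pow_succ', pow_mul, pow_two, zpow_mul_self_sq hx hy, one_pow]

/-- `y` has a conjugate `z` such that `x` and `z` generate a 2-group, the order of `x * z` being
the 2-part of that of `x * y`. -/
theorem exists_two_part [Finite G] (hx : x * x = 1) (hy : y * y = 1) :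
    ∃ (d z : G) (k m : ℕ), d ∈ Subgroup.closure ({x, y} : Set G) ∧ d * y * d⁻¹ = z ∧ z * z = 1 ∧
      orderOf (x * z) = 2 ^ k ∧ Odd m ∧ orderOf (x * y) = 2 ^ k * m ∧
      IsPGroup 2 (Subgroup.closure ({x, z} : Set G)) := by
  obtain ⟨k, m, hm, hn⟩ := Nat.exists_eq_two_pow_mul_odd (orderOf_pos (x * y)).ne'
  obtain ⟨j, rfl⟩ := hm
  refine ⟨(x * y) ^ (-(j : ℤ)), _, k, 2 * j + 1, zpow_mem_closure_pair x y _, rfl, ?_, ?_,
    ⟨j, rfl⟩, hn, ?_⟩
  all_goals
    have hz : (x * y) ^ (-(j : ℤ)) * y * ((x * y) ^ (-(j : ℤ)))⁻¹ =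
        (x * y) ^ (-(2 * j + 1 : ℤ)) * x := by
      conv_lhs => enter [1, 2]; rw [right_eq hx hy]
      rw [← zpow_neg, ← mul_assoc, ← zpow_add, mul_assoc, swap_zpow hx hy, neg_neg, ← mul_assoc,
        ← zpow_add]
      congr 2; ring
    have hxz : x * ((x * y) ^ (-(2 * j + 1 : ℤ)) * x) = (x * y) ^ (2 * j + 1) := by
      rw [← mul_assoc, swap_zpow hx hy, neg_neg, mul_assoc, hx, mul_one,
        show (2 * (j : ℤ) + 1) = ((2 * j + 1 : ℕ) : ℤ) by push_cast; rfl, zpow_natCast]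
    have hord : orderOf ((x * y) ^ (2 * j + 1)) = 2 ^ k := by
      rw [orderOf_pow_of_dvd (by omega) (by rw [hn]; exact dvd_mul_left _ _), hn,
        Nat.mul_div_cancel _ (by omega)]
    rw [hz]
  · exact zpow_mul_self_sq hx hy _
  · rw [hxz, hord]
  · exact isPGroup_closure_pair hx (zpow_mul_self_sq hx hy _) (k := k) (by rw [hxz, hord])

end CfsgLib.Invol
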